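import Cfsg.Agent.Lib.Helper58.BG9d
import Cfsg.Agent.S0126

/-!
Bender–Glauberman, Lemma 9.4 and Corollary 9.5.
-/

set_option autoImplicit false
set_option linter.style.haveILetI false

namespace Cfsg.Agent.Lib.Helper58.BG9

open Subgroup Cfsg.Agent.Lib.Helper28 Cfsg.Agent.Lib.Helper30

universe u

variable {G : Type u} [Group G]

/-- a noncyclic `p`-subgroup, `p` odd, has a normal elementary abelian subgroup of order `p ^ 2`. -/
theorem exists_normal_sq [Finite G] {p : ℕ} [Fact p.Prime] (hp : p ≠ 2) {P : Subgroup G}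
    (hP : IsPGroup p P) (hnc : ¬ IsCyclic P) :
    ∃ D : Subgroup G, D ≤ P ∧ P ≤ normalizer (D : Set G) ∧ Cfsg.IsElementaryAbelian p D ∧
      Nat.card D = p ^ 2 := by
  obtain ⟨A, hn, hA, hc⟩ := Cfsg.Agent.S0126.result hp hP hnc
  exact ⟨A.map P.subtype, map_subtype_le _, le_normalizer_map_subtype hn, elementary_map hA.1 hA.2,
    by rwa [card_map_of_injective P.subtype_injective]⟩

theorem card_le_mul_card_inf_centralizer [Finite G] {p : ℕ} [Fact p.Prime] {P D E : Subgroup G}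
    (hP : IsPGroup p P) (hDP : D ≤ P) (hPD : P ≤ normalizer (D : Set G))
    (hD : Nat.card D ≤ p ^ 2) (hEP : E ≤ P) :
    Nat.card E ≤ p * Nat.card (E ⊓ centralizer (D : Set G) : Subgroup G) := by
  haveI hn : (D.subgroupOf P).Normal := (normal_subgroupOf_iff_le_normalizer hDP).mpr hPD
  have h1 := Cfsg.Agent.Lib.Helper3.index_centralizer_le hP (D.subgroupOf P)
    (by rwa [card_subgroupOf hDP])
  have h2 := Cfsg.Agent.Lib.Helper3.card_le_index_mul_card_inf (E.subgroupOf P)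
    (centralizer (D.subgroupOf P : Set P))
  rw [card_subgroupOf hEP] at h2
  have h3 : Nat.card (E.subgroupOf P ⊓ centralizer (D.subgroupOf P : Set P) : Subgroup P) ≤
      Nat.card (E ⊓ centralizer (D : Set G) : Subgroup G) := by
    rw [← card_map_of_injective P.subtype_injective]
    apply card_le_of_le
    rintro _ ⟨x, ⟨hxE, hxC⟩, rfl⟩
    refine ⟨mem_subgroupOf.mp hxE, ?_⟩
    refine mem_centralizer_iff.mpr ?_
    intro d hd
    have := mem_centralizer_iff.mp hxC ⟨d, hDP hd⟩ (mem_subgroupOf.mpr hd)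
    exact congrArg Subtype.val this
  calc Nat.card E ≤ _ := h2
    _ ≤ p * Nat.card (E ⊓ centralizer (D : Set G) : Subgroup G) := Nat.mul_le_mul h1 h3

theorem not_rankLE_one_of_elementary {p : ℕ} [hp : Fact p.Prime] {K E : Subgroup G} (hEK : E ≤ K)
    (hE : Cfsg.IsElementaryAbelian p E) (hc : p ^ 2 ≤ Nat.card E) : ¬ Cfsg.RankLE 1 K := by
  apply not_rankLE_of_not_pRankLE hp.out
  apply not_pRankLE_of_le hEK hE
  have := hp.out.one_lt
  have : p ^ 1 < p ^ 2 := Nat.pow_lt_pow_right this (by norm_num)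
  omega

theorem le_centralizer_self_of_elementary {p : ℕ} {E : Subgroup G}
    (hE : Cfsg.IsElementaryAbelian p E) : E ≤ centralizer (E : Set G) := by
  intro a ha
  rw [mem_centralizer_iff]
  intro b hb
  simpa using congrArg Subtype.val (hE.1.is_comm.comm ⟨b, hb⟩ ⟨a, ha⟩)

theorem le_centralizer_symm {X Y : Subgroup G} (h : X ≤ centralizer (Y : Set G)) :
    Y ≤ centralizer (X : Set G) := by
  intro y hy
  rw [mem_centralizer_iff]
  intro x hx
  exact (mem_centralizer_iff.mp (h hx) y hy).symm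

/-- the core of 9.4: elementary abelian version. -/
theorem bg94_aux [Finite G] (hG : Cfsg.IsMinSimpleOddOrder G) {p : ℕ} [hp : Fact p.Prime]
    {E₁ E B : Subgroup G} (hE₁ : Cfsg.IsElementaryAbelian p E₁) (hE₁3 : p ^ 3 ≤ Nat.card E₁)
    (hE₁U : Cfsg.InUniqueMaximal E₁) (hBp : IsPGroup p B) (hBnc : ¬ IsCyclic B)
    (hE : Cfsg.IsElementaryAbelian p E) (hE3 : p ^ 3 ≤ Nat.card E)
    (hEB : E ≤ centralizer (B : Set G)) : Cfsg.InUniqueMaximal B := by
  have hB1 : B ≠ ⊥ := by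
    rintro rfl
    exact hBnc inferInstance
  have hp2 : p ≠ 2 := ne_two_of_isPGroup hG hBp hB1
  have hBE : B ≤ centralizer (E : Set G) := le_centralizer_symm hEB
  have hBEp : IsPGroup p (B ⊔ E : Subgroup G) :=
    hBp.to_sup_of_normal_right' (isPGroup_of_elementary hE)
      (hBE.trans (centralizer_le_normalizer _))
  obtain ⟨P, hP, hBEP⟩ := exists_isSylowIn_ge (K := ⊤) le_top hBEp
  obtain ⟨P₁, hP₁, hE₁P₁⟩ := exists_isSylowIn_ge (K := ⊤) le_top (isPGroup_of_elementary hE₁)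
  obtain ⟨k, -, hk⟩ := hP₁.conj hP
  have hE'P : cj k E₁ ≤ P := hk ▸ cj_mono k hE₁P₁
  have hE' := elementary_cj hE₁ k
  have hE'U := uniq_cj hE₁U k
  have hE'3 : p ^ 3 ≤ Nat.card (cj k E₁) := by rwa [card_cj]
  have hBP : B ≤ P := le_sup_left.trans hBEP
  have hEP : E ≤ P := le_sup_right.trans hBEP
  have hPnc : ¬ IsCyclic P := fun h =>
    hBnc (isCyclic_of_injective (inclusion hBP) (inclusion_injective hBP))
  obtain ⟨D, hDP, hPD, hD, hDc⟩ := exists_normal_sq hp2 hP.isPGroup hPnc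
  have hsq : ∀ X : Subgroup G, X ≤ P → p ^ 3 ≤ Nat.card X →
      p ^ 2 ≤ Nat.card (X ⊓ centralizer (D : Set G) : Subgroup G) := by
    intro X hXP hX3
    have h1 := card_le_mul_card_inf_centralizer hP.isPGroup hDP hPD hDc.le hXP
    have h2 : p * p ^ 2 ≤ p * Nat.card (X ⊓ centralizer (D : Set G) : Subgroup G) := by
      calc p * p ^ 2 = p ^ 3 := by ring
        _ ≤ _ := hX3.trans h1
    exact Nat.le_of_mul_le_mul_left h2 hp.out.pos
  -- chain of applications of 9.3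
  have hK₁ : Cfsg.InUniqueMaximal (cj k E₁ ⊓ centralizer (D : Set G)) :=
    bg93 hG hE'U (inf_le_left.trans (le_centralizer_self_of_elementary hE'))
      (not_rankLE_one_of_elementary le_rfl (elementary_mono hE' inf_le_left) (hsq _ hE'P hE'3))
  have hDU : Cfsg.InUniqueMaximal D :=
    bg93 hG hK₁ (le_centralizer_symm inf_le_right)
      (not_rankLE_one_of_elementary le_rfl hD hDc.ge)
  have hK₂ : Cfsg.InUniqueMaximal (E ⊓ centralizer (D : Set G)) :=
    bg93 hG hDU inf_le_right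
      (not_rankLE_one_of_elementary le_rfl (elementary_mono hE inf_le_left) (hsq _ hEP hE3))
  obtain ⟨D', hD'B, -, hD', hD'c⟩ := exists_normal_sq hp2 hBp hBnc
  exact bg93 hG hK₂ (hBE.trans (centralizer_le inf_le_left))
    (not_rankLE_one_of_elementary hD'B hD' hD'c.ge)

/-- B-G 9.4. -/
theorem bg94 [Finite G] (hG : Cfsg.IsMinSimpleOddOrder G) {p : ℕ} [hp : Fact p.Prime]
    {A B : Subgroup G} (hAc : IsMulCommutative A) (hA3 : ¬ Cfsg.PRankLE p 2 ↥A)
    (hAU : Cfsg.InUniqueMaximal A) (hBp : IsPGroup p B) (hBnc : ¬ IsCyclic B)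
    (hB3 : ¬ Cfsg.PRankLE p 2 ↥(centralizer (B : Set G))) : Cfsg.InUniqueMaximal B := by
  obtain ⟨E₁, hE₁A, hE₁, hk₁⟩ := exists_of_not_pRankLE hA3
  obtain ⟨E, hEC, hE, hk⟩ := exists_of_not_pRankLE hB3
  have h1 := pow_succ_le_card_of_lt (isPGroup_of_elementary hE₁) hk₁
  have h2 := pow_succ_le_card_of_lt (isPGroup_of_elementary hE) hk
  have hE₁U : Cfsg.InUniqueMaximal E₁ := by
    refine bg93 hG hAU ?_ (not_rankLE_one_of_elementary le_rfl hE₁ hk₁.le)
    intro a ha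
    rw [mem_centralizer_iff]
    intro b hb
    simpa using congrArg Subtype.val (hAc.is_comm.comm ⟨b, hb⟩ ⟨a, hE₁A ha⟩)
  exact bg94_aux hG hE₁ h1 hE₁U hBp hBnc hE h2 hEC

/-- B-G 9.5. -/
theorem bg95 [Finite G] (hG : Cfsg.IsMinSimpleOddOrder G) {M : Subgroup G} (hM : IsCoatom M)
    {p : ℕ} [hp : Fact p.Prime] (hF : ¬ Cfsg.PRankLE p 2 ↥(Cfsg.fittingOf M))
    {A : Subgroup G} (hAp : IsPGroup p A) (hAc : IsMulCommutative A)
    (hA3 : ¬ Cfsg.PRankLE p 2 ↥A) : Cfsg.InUniqueMaximal A := by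
  obtain ⟨L, -, hLU, A₁, hA₁L, hA₁p, hA₁c, hA₁3⟩ := exists_uniq_of_fitting_rank hG (h1397 hG) hM hF
  have hA₁U : Cfsg.InUniqueMaximal A₁ := by
    refine bg93 hG hLU hA₁L ?_
    obtain ⟨E, hE1, hE2, hE3⟩ := exists_of_not_pRankLE hA₁3
    exact not_rankLE_one_of_elementary hE1 hE2 hE3.le
  refine bg94 hG hA₁c hA₁3 hA₁U hAp ?_ ?_
  · intro hcyc
    obtain ⟨E, hE1, hE2, hE3⟩ := exists_of_not_pRankLE hA3
    have hEcyc : IsCyclic E := isCyclic_of_injective (inclusion hE1) (inclusion_injective hE1)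
    obtain ⟨g, hg⟩ := hEcyc.exists_generator
    have h1 : Nat.card E = orderOf g := (orderOf_eq_card_of_forall_mem_zpowers hg).symm
    have h2 : orderOf g ∣ p := orderOf_dvd_of_pow_eq_one (Subtype.ext (hE2.2 g g.2))
    have h3 := Nat.le_of_dvd hp.out.pos h2
    have h4 : p ^ 1 < p ^ 2 := Nat.pow_lt_pow_right hp.out.one_lt (by norm_num)
    rw [pow_one] at h4
    omega
  · refine not_pRankLE_mono ?_ hA3
    intro a ha
    rw [mem_centralizer_iff]
    intro b hb
    simpa using congrArg Subtype.val (hAc.is_comm.comm ⟨b, hb⟩ ⟨a, ha⟩)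

end Cfsg.Agent.Lib.Helper58.BG9
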