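import Cfsg.Agent.Lib.Helper30.BGUniq
import Cfsg.Agent.Lib.Helper30.PuigTransfer
import Cfsg.Agent.Lib.Helper53.Basic
import Cfsg.Agent.Lib.Helper29.PComp
import Cfsg.Agent.Lib.Helper30.CNLocal2

/-!
Bender–Glauberman, Section 9: basic facts on uniqueness subgroups and Sylow-invariant `p'`-subgroups.
-/

set_option autoImplicit false
set_option linter.style.haveILetI false

namespace Cfsg.Agent.Lib.Helper58.BG9

open Subgroup Cfsg.Agent.Lib.Helper28 Cfsg.Agent.Lib.Helper30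

universe u

variable {G : Type u} [Group G]

theorem exists_coatom_ge [Finite G] {X : Subgroup G} (hX : X ≠ ⊤) : ∃ M, IsCoatom M ∧ X ≤ M := by
  rcases eq_top_or_exists_le_coatom X with h | h
  · exact absurd h hX
  · exact h

theorem uniq_intro {X M : Subgroup G} (hM : IsCoatom M) (hXM : X ≤ M)
    (h : ∀ L : Subgroup G, IsCoatom L → X ≤ L → L = M) : Cfsg.InUniqueMaximal X :=
  ⟨M, ⟨hM, hXM⟩, fun L hL => h L hL.1 hL.2⟩

theorem uniq_eq {X L M : Subgroup G} (h : Cfsg.InUniqueMaximal X) (hL : IsCoatom L) (hXL : X ≤ L)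
    (hM : IsCoatom M) (hXM : X ≤ M) : L = M :=
  h.unique ⟨hL, hXL⟩ ⟨hM, hXM⟩

theorem uniq_mono [Finite G] {X Y : Subgroup G} (h : Cfsg.InUniqueMaximal X) (hXY : X ≤ Y) (hY : Y ≠ ⊤) :
    Cfsg.InUniqueMaximal Y := by
  obtain ⟨M, hM, hYM⟩ := exists_coatom_ge hY
  exact uniq_intro hM hYM fun L hL hYL => uniq_eq h hL (hXY.trans hYL) hM (hXY.trans hYM)

theorem le_of_uniq [Finite G] {X Y M : Subgroup G} (h : Cfsg.InUniqueMaximal X) (hM : IsCoatom M)
    (hXM : X ≤ M) (hXY : X ≤ Y) (hY : Y ≠ ⊤) : Y ≤ M := by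
  obtain ⟨L, hL, hYL⟩ := exists_coatom_ge hY
  rw [← uniq_eq h hL (hXY.trans hYL) hM hXM]
  exact hYL

theorem isCoatom_cj {M : Subgroup G} (hM : IsCoatom M) (g : G) : IsCoatom (cj g M) := by
  refine ⟨fun h => hM.1 ?_, fun L hL => ?_⟩
  · have := congrArg (cj g⁻¹) h
    rw [cj_inv_cj] at this
    rw [this]
    exact eq_top_iff.mpr fun x _ => mem_cj.mpr (mem_top _)
  · have h1 : M < cj g⁻¹ L := by
      refine lt_of_le_of_ne (cj_le_iff.mp hL.le) fun h => hL.ne ?_
      rw [h, cj_cj_inv]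
    have h2 := hM.2 _ h1
    have := congrArg (cj g) h2
    rw [cj_cj_inv] at this
    rw [this]
    exact eq_top_iff.mpr fun x _ => mem_cj.mpr (mem_top _)

theorem uniq_cj {X : Subgroup G} (h : Cfsg.InUniqueMaximal X) (g : G) :
    Cfsg.InUniqueMaximal (cj g X) := by
  obtain ⟨M, ⟨hM, hXM⟩, _⟩ := id h
  refine uniq_intro (isCoatom_cj hM g) (cj_mono g hXM) fun L hL hXL => ?_
  have h1 := uniq_eq h (isCoatom_cj hL g⁻¹) (cj_le_iff.mp hXL) hM hXM
  rw [← h1, cj_cj_inv]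

theorem uniq_of_cj {X : Subgroup G} {g : G} (h : Cfsg.InUniqueMaximal (cj g X)) :
    Cfsg.InUniqueMaximal X := by
  have := uniq_cj h g⁻¹
  rwa [cj_inv_cj] at this

theorem odd_card_subgroup [Finite G] (hG : Cfsg.IsMinSimpleOddOrder G) (X : Subgroup G) :
    Odd (Nat.card X) :=
  Odd.of_dvd_nat hG.1 (card_subgroup_dvd_card X)

theorem prime_ne_two [Finite G] (hG : Cfsg.IsMinSimpleOddOrder G) {p : ℕ} {X : Subgroup G}
    (hp : p ∣ Nat.card X) : p ≠ 2 := by
  rintro rfl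
  exact (Nat.not_even_iff_odd.mpr (odd_card_subgroup hG X)) (even_iff_two_dvd.mpr hp)

theorem ne_two_of_isPGroup [Finite G] (hG : Cfsg.IsMinSimpleOddOrder G) {p : ℕ} [hp : Fact p.Prime]
    {X : Subgroup G} (hX : IsPGroup p X) (h1 : X ≠ ⊥) : p ≠ 2 := by
  obtain ⟨n, hn⟩ := IsPGroup.iff_card.mp hX
  apply prime_ne_two hG (X := X)
  rw [hn]
  refine dvd_pow_self p fun h0 => h1 ?_
  rw [h0, pow_zero] at hn
  exact (card_eq_one).mp hn

theorem ne_top_of_isPGroup [Finite G] (hG : Cfsg.IsMinSimpleOddOrder G) {p : ℕ} [Fact p.Prime]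
    {X : Subgroup G} (hX : IsPGroup p X) : X ≠ ⊤ := by
  rintro rfl
  have h1 : Group.IsNilpotent (⊤ : Subgroup G) := hX.isNilpotent
  have h2 : Group.IsSolvable (⊤ : Subgroup G) := inferInstance
  exact not_isSolvable_top hG h2

/-- A uniqueness subgroup is nontrivial. -/
theorem ne_bot_of_uniq [Finite G] (hG : Cfsg.IsMinSimpleOddOrder G) {X : Subgroup G}
    (h : Cfsg.InUniqueMaximal X) : X ≠ ⊥ := by
  rintro rfl
  obtain ⟨M, ⟨hM, _⟩, _⟩ := id h
  obtain ⟨x, -, hx⟩ := SetLike.exists_of_lt (lt_top_iff_ne_top.mpr hM.1)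
  have h1 : zpowers x ≠ ⊤ := by
    intro htop
    have h2 : Group.IsSolvable (zpowers x) := inferInstance
    rw [htop] at h2
    exact not_isSolvable_top hG h2
  exact hx (le_of_uniq h hM bot_le bot_le h1 (mem_zpowers x))

theorem uniq_ne_top {X : Subgroup G} (h : Cfsg.InUniqueMaximal X) : X ≠ ⊤ := by
  obtain ⟨M, ⟨hM, hXM⟩, _⟩ := h
  rintro rfl
  exact hM.1 (top_le_iff.mp hXM)

/-- In a solvable group, a `p'`-subgroup normalized by a Sylow `p`-subgroup lies in `O_{p'}`. -/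
theorem sylow_inv_le_pPrimeCore {X : Type*} [Group X] [Finite X] [Group.IsSolvable X] {p : ℕ}
    [hp : Fact p.Prime] (P : Sylow p X) (K : Subgroup X) (hK : (Nat.card K).Coprime p)
    (hPK : (P : Subgroup X) ≤ normalizer (K : Set X)) : K ≤ Cfsg.pPrimeCore p X := by
  set N := Cfsg.pPrimeCore p X with hN
  have hO : Cfsg.pPrimeCore p (X ⧸ N) = ⊥ := Cfsg.Agent.Lib.Helper29.pPrimeCore_quotient_eq_bot p
  have hC := centralizer_pCore_le_of_solvable (p := p) (G := X ⧸ N) hO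
  have hsurj : Function.Surjective (QuotientGroup.mk' N) := QuotientGroup.mk'_surjective N
  have hle : Cfsg.pCore p (X ⧸ N) ≤ (P : Subgroup X).map (QuotientGroup.mk' N) :=
    Cfsg.Agent.Lib.Helper53.pCore_le_sylow (P.mapSurjective hsurj)
  -- elements of `K` have trivial image as soon as the image is a `p`-element
  have key : ∀ c ∈ K, QuotientGroup.mk' N c ∈ Cfsg.pCore p (X ⧸ N) → QuotientGroup.mk' N c = 1 := by
    intro c hc hcp
    obtain ⟨k, hk⟩ := (Cfsg.Agent.Lib.Helper1.pCore_isPGroup p (X ⧸ N)) ⟨_, hcp⟩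
    have h1 : orderOf (QuotientGroup.mk' N c) ∣ p ^ k :=
      orderOf_dvd_of_pow_eq_one (congrArg Subtype.val hk)
    have h2 : orderOf (QuotientGroup.mk' N c) ∣ Nat.card K := by
      refine (orderOf_map_dvd _ c).trans ?_
      have := orderOf_dvd_natCard (⟨c, hc⟩ : K)
      rwa [Subgroup.orderOf_mk] at this
    have h3 : orderOf (QuotientGroup.mk' N c) = 1 :=
      Nat.eq_one_of_dvd_coprimes (Nat.Coprime.pow_right k hK) h2 h1
    exact orderOf_eq_one_iff.mp h3
  intro k hk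
  have h1 : QuotientGroup.mk' N k ∈ centralizer (Cfsg.pCore p (X ⧸ N) : Set (X ⧸ N)) := by
    rw [mem_centralizer_iff]
    intro y hy
    obtain ⟨r, hr, rfl⟩ := hle hy
    have hc : r * k * r⁻¹ * k⁻¹ ∈ K :=
      K.mul_mem ((mem_normalizer_iff.mp (hPK hr) k).mp hk) (K.inv_mem hk)
    have hn : (Cfsg.pCore p (X ⧸ N)).Normal := Cfsg.Agent.Lib.Helper1.pCore_normal p _
    have hcp : QuotientGroup.mk' N (r * k * r⁻¹ * k⁻¹) ∈ Cfsg.pCore p (X ⧸ N) := by
      have h2 : QuotientGroup.mk' N (r * k * r⁻¹ * k⁻¹) =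
          QuotientGroup.mk' N r * (QuotientGroup.mk' N k * (QuotientGroup.mk' N r)⁻¹ *
            (QuotientGroup.mk' N k)⁻¹) := by
        simp only [map_mul, map_inv]; group
      rw [h2]
      exact (Cfsg.pCore p (X ⧸ N)).mul_mem hy (hn.conj_mem _ ((Cfsg.pCore p (X ⧸ N)).inv_mem hy) _)
    have h3 := key _ hc hcp
    simp only [map_mul, map_inv] at h3
    calc QuotientGroup.mk' N r * QuotientGroup.mk' N k
        = (QuotientGroup.mk' N r * QuotientGroup.mk' N k * (QuotientGroup.mk' N r)⁻¹ *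
            (QuotientGroup.mk' N k)⁻¹) * (QuotientGroup.mk' N k * QuotientGroup.mk' N r) := by group
      _ = QuotientGroup.mk' N k * QuotientGroup.mk' N r := by rw [h3, one_mul]
  have h2 := key k hk (hC h1)
  exact (QuotientGroup.eq_one_iff k).mp h2

/-- Relative form. -/
theorem sylow_inv_le_opPrimeIn [Finite G] {p : ℕ} [Fact p.Prime] {X P K : Subgroup G}
    (hX : Group.IsSolvable X) (hP : IsSylowIn p P X) (hKX : K ≤ X) (hK : (Nat.card K).Coprime p)
    (hPK : P ≤ normalizer (K : Set G)) : K ≤ opPrimeIn p X := by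
  obtain ⟨P', hP'⟩ := hP.exists_sylow
  apply le_map_subtype_of_subgroupOf_le hKX
  apply sylow_inv_le_pPrimeCore P'
  · rwa [card_subgroupOf hKX]
  · intro x hx
    have hxP : (x : G) ∈ P := hP' ▸ mem_map_of_mem X.subtype hx
    rw [← subgroupOf_normalizer_eq hKX]
    exact mem_subgroupOf.mpr (hPK hxP)

/-- A normal `p`-subgroup lies in every Sylow `p`-subgroup, relative form. -/
theorem opIn_le_of_isSylowIn [Finite G] {p : ℕ} [Fact p.Prime] {X P : Subgroup G}
    (hP : IsSylowIn p P X) : opIn p X ≤ P := by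
  obtain ⟨P', hP'⟩ := hP.exists_sylow
  rw [← hP']
  exact Subgroup.map_mono (Cfsg.Agent.Lib.Helper53.pCore_le_sylow P')

end Cfsg.Agent.Lib.Helper58.BG9
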