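import Cfsg.Agent.Lib.Helper58.PGSYLE
import Cfsg.Agent.Lib.Helper28.Cores

/-!
# Ladder "PG" (S2490), rung ESIMPLE: the normal closure of a Sylow 11-subgroup is simple.
-/

set_option autoImplicit false
set_option linter.unusedSectionVars false
set_option linter.unusedVariables false
set_option linter.style.haveILetI false

open Cfsg.Agent.Lib.Helper20.PG

namespace Cfsg.Agent.Lib.Helper58.PG

theorem closure_simple {G : Type*} [Group G] [Finite G] (hG : Nat.card G = 7920)
    (hK : ∀ L : Subgroup G, L.Normal → ¬ 11 ∣ Nat.card L → L = ⊥) (P : Sylow 11 G) :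
    IsSimpleGroup ↥(Subgroup.normalClosure ((P : Subgroup G) : Set G)) := by
  haveI : Fact (Nat.Prime 11) := ⟨by norm_num⟩
  set E := Subgroup.normalClosure ((P : Subgroup G) : Set G) with hE
  haveI hEn : E.Normal := Subgroup.normalClosure_normal
  obtain ⟨_, hcard⟩ := sylow_closure hG P
  haveI : Nontrivial E := by
    obtain ⟨Q⟩ : Nonempty (Sylow 11 E) := inferInstance
    have h1 := hcard Q
    have h2 : Nat.card (Q : Subgroup E) ≤ Nat.card E := Subgroup.card_le_card_group _
    rw [← Finite.one_lt_card_iff_nontrivial]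
    have h3 : Nat.card (Q : Subgroup E) = 11 := h1
    omega
  refine ⟨fun U hU => ?_⟩
  by_cases h11 : 11 ∣ Nat.card U
  · right
    -- `U` contains a Sylow subgroup of `E`
    obtain ⟨x, hx⟩ := exists_prime_orderOf_dvd_card' 11 h11
    have hx' : orderOf (x : E) = 11 := by rw [Subgroup.orderOf_coe, hx]
    have hz : IsPGroup 11 (Subgroup.zpowers (x : E)) := by
      apply IsPGroup.of_card (n := 1)
      rw [Nat.card_zpowers, hx', pow_one]
    obtain ⟨Q, hQ⟩ := hz.exists_le_sylow
    have hQe : Subgroup.zpowers (x : E) = (Q : Subgroup E) := by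
      apply Subgroup.eq_of_le_of_card_ge hQ
      rw [Nat.card_zpowers, hx']
      exact (hcard Q).le
    have hQU : (Q : Subgroup E) ≤ U := by
      rw [← hQe, Subgroup.zpowers_le]
      exact x.2
    have hall : ∀ Q' : Sylow 11 E, (Q' : Subgroup E) ≤ U := by
      intro Q'
      obtain ⟨g, rfl⟩ := MulAction.exists_smul_eq E Q Q'
      intro y hy
      rw [Sylow.coe_subgroup_smul, Subgroup.mem_pointwise_smul_iff_inv_smul_mem] at hy
      have h2 := hU.conj_mem _ (hQU hy) g
      have h3 : g * ((MulAut.conj g)⁻¹ • y : E) * g⁻¹ = y := by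
        rw [← map_inv, MulAut.smul_def, MulAut.conj_apply]
        group
      rwa [h3] at h2
    have hallG : ∀ R : Sylow 11 G, (R : Subgroup G) ≤ U.map E.subtype := by
      intro R y hy
      have h1 := hall (R.subtype (syle_le_closure 11 P R))
      have hyE : y ∈ E := syle_le_closure 11 P R hy
      have h2 : (⟨y, hyE⟩ : E) ∈ ((R.subtype (syle_le_closure 11 P R) : Sylow 11 E) : Subgroup E) := by
        rw [Sylow.coe_subtype, Subgroup.mem_subgroupOf]
        exact hy
      exact ⟨⟨y, hyE⟩, h1 h2, rfl⟩
    have hEU : E ≤ U.map E.subtype := by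
      have hgen : ∀ W : Subgroup G, (∀ R : Sylow 11 G, (R : Subgroup G) ≤ W) → E ≤ W := by
        intro W hallG
        rw [hE, Subgroup.normalClosure, Subgroup.closure_le]
        intro y hy
        rw [Group.mem_conjugatesOfSet_iff] at hy
        obtain ⟨a, ha, hay⟩ := hy
        rw [isConj_iff] at hay
        obtain ⟨c, rfl⟩ := hay
        apply hallG (c • P)
        rw [Sylow.coe_subgroup_smul, Subgroup.mem_pointwise_smul_iff_inv_smul_mem]
        have h3 : ((MulAut.conj c)⁻¹ • (c * a * c⁻¹) : G) = a := by
          rw [← map_inv, MulAut.smul_def, MulAut.conj_apply]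
          group
        rw [h3]
        exact ha
      exact hgen _ hallG
    rw [eq_top_iff]
    intro y _
    obtain ⟨u, hu, huy⟩ := hEU y.2
    have : u = y := Subtype.ext huy
    rwa [← this]
  · left
    have hsub : (U.map E.subtype).IsSubnormal :=
      Subgroup.IsSubnormal.trans' hU.isSubnormal hEn.isSubnormal
    have hc : Nat.card (U.map E.subtype) = Nat.card U :=
      Subgroup.card_map_of_injective E.subtype_injective
    have hcop : (Nat.card (U.map E.subtype)).Coprime 11 := by
      rw [hc, Nat.coprime_comm]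
      exact (Nat.Prime.coprime_iff_not_dvd (by norm_num)).2 h11
    have h1 := Cfsg.Agent.Lib.Helper28.subnormal_le_pPrimeCore hsub hcop
    have h2 : Cfsg.pPrimeCore 11 G = ⊥ := by
      apply hK
      · haveI := Cfsg.Agent.Lib.Helper28.pPrimeCore_characteristic (G := G) 11
        infer_instance
      · exact Cfsg.Agent.Lib.Helper28.pPrimeCore_not_dvd 11
    rw [h2, le_bot_iff, Subgroup.map_eq_bot_iff_of_injective _ E.subtype_injective] at h1
    exact h1

end Cfsg.Agent.Lib.Helper58.PG
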