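import Cfsg.Agent.Lib.Helper20.PGDefs

/-!
# Ladder "PG" (S2490), rung SYLE: Sylow 11-subgroups of the normal closure of a Sylow 11-subgroup.
-/

set_option autoImplicit false
set_option linter.unusedSectionVars false
set_option linter.unusedVariables false
set_option linter.style.haveILetI false

open Cfsg.Agent.Lib.Helper20.PG

namespace Cfsg.Agent.Lib.Helper58.PG

theorem syle_card_sylow11 {G : Type*} [Group G] [Finite G] (hG : Nat.card G = 7920)
    (P : Sylow 11 G) : Nat.card P = 11 := by
  haveI : Fact (Nat.Prime 11) := ⟨by norm_num⟩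
  rw [Sylow.card_eq_multiplicity, hG]
  have : (7920 : ℕ).factorization 11 = 1 := by
    have h7920 : (7920 : ℕ) = 11 * 720 := by norm_num
    rw [h7920, Nat.factorization_mul (by norm_num) (by norm_num), Finsupp.add_apply,
      Nat.Prime.factorization_self (by norm_num),
      Nat.factorization_eq_zero_of_not_dvd (by norm_num)]
  rw [this, pow_one]

/-- every Sylow `p`-subgroup lies in the normal closure of one of them. -/
theorem syle_le_closure {G : Type*} [Group G] [Finite G] (p : ℕ) [Fact p.Prime]
    (P R : Sylow p G) : (R : Subgroup G) ≤ Subgroup.normalClosure ((P : Subgroup G) : Set G) := by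
  obtain ⟨g, rfl⟩ := MulAction.exists_smul_eq G P R
  intro x hx
  rw [Sylow.coe_subgroup_smul, Subgroup.mem_pointwise_smul_iff_inv_smul_mem] at hx
  have h1 : ((MulAut.conj g)⁻¹ • x : G) ∈ Subgroup.normalClosure ((P : Subgroup G) : Set G) :=
    Subgroup.subset_normalClosure hx
  have h2 := (Subgroup.normalClosure_normal (s := ((P : Subgroup G) : Set G))).conj_mem _ h1 g
  have h3 : g * ((MulAut.conj g)⁻¹ • x : G) * g⁻¹ = x := by
    rw [← map_inv, MulAut.smul_def, MulAut.conj_apply]
    group
  rwa [h3] at h2

/-- every Sylow `p`-subgroup of the normal closure comes from one of `G`. -/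
theorem syle_surj {G : Type*} [Group G] [Finite G] (p : ℕ) [Fact p.Prime]
    (P : Sylow p G) (Q : Sylow p ↥(Subgroup.normalClosure ((P : Subgroup G) : Set G))) :
    ∃ R : Sylow p G, R.subtype (syle_le_closure p P R) = Q := by
  have hQ : IsPGroup p ((Q : Subgroup _).map
      (Subgroup.normalClosure ((P : Subgroup G) : Set G)).subtype) := Q.2.map _
  obtain ⟨R, hR⟩ := hQ.exists_le_sylow
  refine ⟨R, ?_⟩
  apply Sylow.ext
  apply Q.3 (R.subtype (syle_le_closure p P R)).2
  intro x hx
  rw [Sylow.coe_subtype, Subgroup.mem_subgroupOf]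
  exact hR ⟨x, hx, rfl⟩

theorem sylow_closure {G : Type*} [Group G] [Finite G] (hG : Nat.card G = 7920) (P : Sylow 11 G) :
    Nat.card (Sylow 11 ↥(Subgroup.normalClosure ((P : Subgroup G) : Set G))) =
      Nat.card (Sylow 11 G) ∧
    ∀ Q : Sylow 11 ↥(Subgroup.normalClosure ((P : Subgroup G) : Set G)), Nat.card Q = 11 := by
  haveI : Fact (Nat.Prime 11) := ⟨by norm_num⟩
  constructor
  · symm
    apply Nat.card_congr
    refine Equiv.ofBijective (fun R => R.subtype (syle_le_closure 11 P R)) ⟨?_, ?_⟩
    · intro R1 R2 h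
      exact Sylow.subtype_injective h
    · intro Q
      exact syle_surj 11 P Q
  · intro Q
    obtain ⟨R, rfl⟩ := syle_surj 11 P Q
    have h1 : Nat.card (R.subtype (syle_le_closure 11 P R)) = Nat.card R := by
      rw [Sylow.coe_subtype]
      exact Nat.card_congr (Subgroup.subgroupOfEquivOfLe (syle_le_closure 11 P R)).toEquiv
    rw [h1]
    exact syle_card_sylow11 hG R

end Cfsg.Agent.Lib.Helper58.PG
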