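import Cfsg.Agent.Lib.Helper58.BG9a
import Cfsg.Agent.Lib.Helper3.RankThree
import Cfsg.Agent.S0100
import Cfsg.Agent.S1397

/-!
Bender–Glauberman, Section 9: rank lemmas, existence of `SCN_3`, the Fitting uniqueness corollary 8.2
(from the text of S1397).
-/

set_option autoImplicit false
set_option linter.style.haveILetI false

namespace Cfsg.Agent.Lib.Helper58.BG9

open Subgroup Cfsg.Agent.Lib.Helper28 Cfsg.Agent.Lib.Helper30

universe u

variable {G : Type u} [Group G]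

theorem elementary_subgroupOf {p : ℕ} {E : Subgroup G} (hE : Cfsg.IsElementaryAbelian p E)
    (X : Subgroup G) : Cfsg.IsElementaryAbelian p (E.subgroupOf X) := by
  refine ⟨⟨⟨?_⟩⟩, ?_⟩
  · rintro ⟨a, ha⟩ ⟨b, hb⟩
    apply Subtype.ext
    apply Subtype.ext
    have := hE.1.is_comm.comm ⟨a, mem_subgroupOf.mp ha⟩ ⟨b, mem_subgroupOf.mp hb⟩
    simpa using congrArg Subtype.val this
  · intro a ha
    apply Subtype.ext
    exact hE.2 a (mem_subgroupOf.mp ha)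

theorem elementary_map {p : ℕ} {X : Subgroup G} {E : Subgroup X} (hc : IsMulCommutative E)
    (he : ∀ a ∈ E, a ^ p = 1) : Cfsg.IsElementaryAbelian p (E.map X.subtype) := by
  refine ⟨⟨⟨?_⟩⟩, ?_⟩
  · rintro ⟨_, a, ha, rfl⟩ ⟨_, b, hb, rfl⟩
    apply Subtype.ext
    have := hc.is_comm.comm ⟨a, ha⟩ ⟨b, hb⟩
    have h2 := congrArg (fun z : E => ((z : X) : G)) this
    simpa using h2
  · rintro _ ⟨a, ha, rfl⟩
    have := he a ha
    have h2 := congrArg (fun z : X => (z : G)) this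
    simpa using h2

theorem elementary_mono {p : ℕ} {E B : Subgroup G} (hE : Cfsg.IsElementaryAbelian p E) (hBE : B ≤ E) :
    Cfsg.IsElementaryAbelian p B := by
  refine ⟨⟨⟨?_⟩⟩, fun a ha => hE.2 a (hBE ha)⟩
  rintro ⟨a, ha⟩ ⟨b, hb⟩
  apply Subtype.ext
  simpa using congrArg Subtype.val (hE.1.is_comm.comm ⟨a, hBE ha⟩ ⟨b, hBE hb⟩)

theorem elementary_cj {p : ℕ} {E : Subgroup G} (hE : Cfsg.IsElementaryAbelian p E) (g : G) :
    Cfsg.IsElementaryAbelian p (cj g E) := by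
  refine ⟨⟨⟨?_⟩⟩, ?_⟩
  · rintro ⟨_, a, ha, rfl⟩ ⟨_, b, hb, rfl⟩
    apply Subtype.ext
    have : a * b = b * a := by simpa using congrArg Subtype.val (hE.1.is_comm.comm ⟨a, ha⟩ ⟨b, hb⟩)
    simp only [MulEquiv.coe_toMonoidHom, MulMemClass.mk_mul_mk, ← map_mul, this]
  · rintro _ ⟨a, ha, rfl⟩
    simp only [MulEquiv.coe_toMonoidHom, ← map_pow, hE.2 a ha, map_one]

theorem not_pRankLE_of_le {p k : ℕ} {X E : Subgroup G} (hEX : E ≤ X)
    (hE : Cfsg.IsElementaryAbelian p E) (hk : p ^ k < Nat.card E) : ¬ Cfsg.PRankLE p k X := by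
  intro h
  have h1 := elementary_subgroupOf hE X
  have h2 := h (E.subgroupOf X) h1.1 h1.2
  rw [card_subgroupOf hEX] at h2
  omega

theorem exists_of_not_pRankLE {p k : ℕ} {X : Subgroup G} (h : ¬ Cfsg.PRankLE p k X) :
    ∃ E : Subgroup G, E ≤ X ∧ Cfsg.IsElementaryAbelian p E ∧ p ^ k < Nat.card E := by
  unfold Cfsg.PRankLE at h
  push Not at h
  obtain ⟨E', hc, he, hk⟩ := h
  refine ⟨E'.map X.subtype, map_subtype_le _, elementary_map hc he, ?_⟩
  rwa [card_map_of_injective X.subtype_injective]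

theorem not_pRankLE_mono {p k : ℕ} {X Y : Subgroup G} (hXY : X ≤ Y) (h : ¬ Cfsg.PRankLE p k X) :
    ¬ Cfsg.PRankLE p k Y := by
  obtain ⟨E, hEX, hE, hk⟩ := exists_of_not_pRankLE h
  exact not_pRankLE_of_le (hEX.trans hXY) hE hk

theorem not_rankLE_of_not_pRankLE {p k : ℕ} (hp : p.Prime) {X : Subgroup G}
    (h : ¬ Cfsg.PRankLE p k X) : ¬ Cfsg.RankLE k X := fun h' => h (h' p hp)

theorem pow_succ_le_card_of_lt [Finite G] {p k : ℕ} [hp : Fact p.Prime] {E : Subgroup G}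
    (hE : IsPGroup p E) (hk : p ^ k < Nat.card E) : p ^ (k + 1) ≤ Nat.card E := by
  obtain ⟨n, hn⟩ := IsPGroup.iff_card.mp hE
  rw [hn] at hk ⊢
  exact Nat.pow_le_pow_right hp.out.pos ((Nat.pow_lt_pow_iff_right hp.out.one_lt).mp hk)

/-- An elementary abelian group contains elementary abelian subgroups of every smaller order. -/
theorem exists_le_card_eq [Finite G] {p k : ℕ} [hp : Fact p.Prime] {E : Subgroup G}
    (hE : IsPGroup p E) (hk : p ^ k ≤ Nat.card E) : ∃ B : Subgroup G, B ≤ E ∧ Nat.card B = p ^ k := by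
  obtain ⟨n, hn⟩ := IsPGroup.iff_card.mp hE
  have hkn : k ≤ n := (Nat.pow_le_pow_iff_right hp.out.one_lt).mp (hn ▸ hk)
  obtain ⟨B', hB'⟩ := Sylow.exists_subgroup_card_pow_prime (G := E) p (n := k)
    (hn ▸ pow_dvd_pow p hkn)
  exact ⟨B'.map E.subtype, map_subtype_le _, by rwa [card_map_of_injective E.subtype_injective]⟩

/-- `SCN_3(P)` is nonempty for a `p`-group `P` of rank at least `3`, `p` odd. -/
theorem exists_scn3 [Finite G] {p : ℕ} [Fact p.Prime] (hp : p ≠ 2) {P : Subgroup G}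
    (hP : IsPGroup p P) (hr : ¬ Cfsg.PRankLE p 2 P) :
    ∃ A : Subgroup G, Cfsg.IsSCN P A ∧ ¬ Cfsg.PRankLE p 2 A := by
  have h1 : ∃ A₁ : Subgroup P, A₁.Normal ∧ IsMulCommutative A₁ ∧ (∀ a ∈ A₁, a ^ p = 1) ∧
      Nat.card A₁ = p ^ 3 := by
    by_contra hcon
    push Not at hcon
    exact hr fun E hE hEe => Cfsg.Agent.S0100.result hp hP (fun A hn hc he => hcon A hn hc he) E hE hEe
  obtain ⟨A₁, hn, hc, he, hcard⟩ := h1
  obtain ⟨A, hA₁A, hAn, hAc, hAC⟩ := Cfsg.Agent.Lib.Helper3.exists_self_centralizing_normal hP A₁ hn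
    (fun a ha b hb => congrArg Subtype.val (hc.is_comm.comm ⟨a, ha⟩ ⟨b, hb⟩))
  refine ⟨A.map P.subtype, ⟨map_subtype_le _, le_normalizer_map_subtype hAn, ?_⟩, ?_⟩
  · apply le_antisymm
    · rintro x ⟨hxP, hxC⟩
      refine ⟨⟨x, hxP⟩, ?_, rfl⟩
      have hx' : (⟨x, hxP⟩ : P) ∈ centralizer (A : Set P) := by
        rw [mem_centralizer_iff]
        intro y hy
        exact Subtype.ext (mem_centralizer_iff.mp hxC y ⟨y, hy, rfl⟩)
      rw [hAC] at hx'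
      exact hx'
    · refine le_inf (map_subtype_le _) ?_
      rintro _ ⟨x, hx, rfl⟩
      rw [mem_centralizer_iff]
      rintro _ ⟨y, hy, rfl⟩
      exact congrArg Subtype.val (hAc y hy x hx)
  · refine not_pRankLE_of_le (Subgroup.map_mono hA₁A) (elementary_map hc he) ?_
    rw [card_map_of_injective P.subtype_injective, hcard]
    exact Nat.pow_lt_pow_right (Fact.out : p.Prime).one_lt (by norm_num)

/-- The text of S1397 (B-G Theorem 8.1). -/
def H1397 (G : Type u) [Group G] : Prop :=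
  ∀ (M : Subgroup G) (_ : IsCoatom M) (p : ℕ) [Fact p.Prime] (A₀ : Subgroup G)
    (_ : A₀ ≤ Cfsg.fittingOf M) (_ : Cfsg.IsElementaryAbelian p A₀) (_ : p ^ 3 ≤ Nat.card A₀)
    (_ : ∀ B : Subgroup G, B ≤ Cfsg.fittingOf M → Cfsg.IsElementaryAbelian p B → A₀ ≤ B → B = A₀),
    (¬ IsPGroup p ↥(Cfsg.fittingOf M) →
        Cfsg.InUniqueMaximal (Cfsg.fittingOf M ⊓ Subgroup.centralizer (A₀ : Set G))) ∧
      (IsPGroup p ↥(Cfsg.fittingOf M) → ∀ P : Sylow p M,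
        ¬ p ∣ ((P : Subgroup M).map M.subtype).index ∧
        ∀ A : Subgroup G, Cfsg.IsSCN ((P : Subgroup M).map M.subtype) A → ¬ Cfsg.PRankLE p 2 ↥A →
          A ≤ Cfsg.fittingOf M ∧ Cfsg.InUniqueMaximal A)

theorem h1397 [Finite G] (hG : Cfsg.IsMinSimpleOddOrder G) : H1397 G :=
  fun M hM p _ A₀ h1 h2 h3 h4 => Cfsg.Agent.S1397.result hG M hM p A₀ h1 h2 h3 h4

/-- A maximal elementary abelian `p`-subgroup of `F` above a given one. -/
theorem exists_max_elementary [Finite G] {p : ℕ} {F E : Subgroup G} (hEF : E ≤ F)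
    (hE : Cfsg.IsElementaryAbelian p E) :
    ∃ A₀ : Subgroup G, E ≤ A₀ ∧ A₀ ≤ F ∧ Cfsg.IsElementaryAbelian p A₀ ∧
      ∀ B : Subgroup G, B ≤ F → Cfsg.IsElementaryAbelian p B → A₀ ≤ B → B = A₀ := by
  obtain ⟨A₀, hA₀⟩ := (Set.toFinite {B : Subgroup G | E ≤ B ∧ B ≤ F ∧ Cfsg.IsElementaryAbelian p B}).exists_maximal
    ⟨E, le_rfl, hEF, hE⟩
  refine ⟨A₀, hA₀.1.1, hA₀.1.2.1, hA₀.1.2.2, fun B hBF hB hAB => ?_⟩
  exact le_antisymm (hA₀.2 ⟨hA₀.1.1.trans hAB, hBF, hB⟩ hAB) hAB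

/-- From `r_p(F(M)) ≥ 3`: some abelian `p`-subgroup of rank at least `3` contained in `F(M)` is a
uniqueness subgroup (B-G 8.1, 9.3 is not needed in the second case). -/
theorem exists_uniq_of_fitting_rank [Finite G] (hG : Cfsg.IsMinSimpleOddOrder G) (h97 : H1397 G)
    {M : Subgroup G} (hM : IsCoatom M) {p : ℕ} [Fact p.Prime]
    (hr : ¬ Cfsg.PRankLE p 2 (Cfsg.fittingOf M)) :
    ∃ L : Subgroup G, L ≤ Cfsg.fittingOf M ∧ Cfsg.InUniqueMaximal L ∧
      ∃ A : Subgroup G, A ≤ centralizer (L : Set G) ∧ IsPGroup p A ∧ IsMulCommutative A ∧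
        ¬ Cfsg.PRankLE p 2 A := by
  obtain ⟨E, hEF, hE, hk⟩ := exists_of_not_pRankLE hr
  obtain ⟨A₀, hEA, hAF, hA₀, hmax⟩ := exists_max_elementary hEF hE
  have hA₀p := isPGroup_of_elementary hA₀
  have hk' : p ^ 2 < Nat.card A₀ := hk.trans_le (card_le_of_le hEA)
  have h3 : p ^ 3 ≤ Nat.card A₀ := pow_succ_le_card_of_lt hA₀p hk'
  have hA₀1 : A₀ ≠ ⊥ := by
    rintro rfl
    rw [card_bot] at hk'
    exact absurd hk' (by have := Nat.one_le_pow 2 p (Fact.out : p.Prime).pos; omega)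
  have hp2 : p ≠ 2 := ne_two_of_isPGroup hG hA₀p hA₀1
  obtain ⟨h1, h2⟩ := h97 M hM p A₀ hAF hA₀ h3 hmax
  by_cases hF : IsPGroup p ↥(Cfsg.fittingOf M)
  · obtain ⟨P⟩ : Nonempty (Sylow p M) := inferInstance
    have hFP : Cfsg.fittingOf M ≤ (P : Subgroup M).map M.subtype :=
      (le_opIn (fitIn_le M) (le_normalizer_fitIn M) hF).trans
        (opIn_le_of_isSylowIn (isSylowIn_of_sylow P))
    obtain ⟨A, hA, hA3⟩ := exists_scn3 hp2 (P.2.map M.subtype) (not_pRankLE_mono hFP hr)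
    obtain ⟨hAF', hAU⟩ := (h2 hF P).2 A hA hA3
    have hAc : ∀ a ∈ A, ∀ b ∈ A, a * b = b * a := by
      intro a ha b hb
      have : a ∈ centralizer (A : Set G) := (hA.2.2 ▸ ha : a ∈ _ ⊓ centralizer (A : Set G)).2
      exact (mem_centralizer_iff.mp this b hb).symm
    refine ⟨A, hAF', hAU, A, ?_, (P.2.map M.subtype).to_le hA.1, ⟨⟨?_⟩⟩, hA3⟩
    · intro a ha
      exact mem_centralizer_iff.mpr fun b hb => hAc b hb a ha
    · rintro ⟨a, ha⟩ ⟨b, hb⟩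
      exact Subtype.ext (hAc a ha b hb)
  · refine ⟨_, inf_le_left, h1 hF, A₀, ?_, hA₀p, hA₀.1, not_pRankLE_of_le le_rfl hA₀ hk'⟩
    intro a ha
    rw [mem_centralizer_iff]
    rintro x ⟨-, hx⟩
    exact (mem_centralizer_iff.mp hx a ha).symm

/-- B-G Corollary 8.2. -/
theorem fitting_uniq [Finite G] (hG : Cfsg.IsMinSimpleOddOrder G) (h97 : H1397 G)
    {M : Subgroup G} (hM : IsCoatom M) (hr : ¬ Cfsg.RankLE 2 (Cfsg.fittingOf M)) :
    Cfsg.InUniqueMaximal (Cfsg.fittingOf M) := by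
  unfold Cfsg.RankLE at hr
  push Not at hr
  obtain ⟨p, hp, hr⟩ := hr
  haveI : Fact p.Prime := ⟨hp⟩
  obtain ⟨L, hLF, hL, -⟩ := exists_uniq_of_fitting_rank hG h97 hM hr
  refine uniq_mono hL hLF fun h => hM.1 ?_
  exact top_le_iff.mp (h ▸ fitIn_le M)

end Cfsg.Agent.Lib.Helper58.BG9
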