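import Cfsg.Agent.Lib.Helper58.BG9b
import Cfsg.Agent.Lib.Helper30.BG8
import Cfsg.Agent.Lib.Helper30.Transitivity3
import Cfsg.Agent.Lib.Helper77.SectRank2
import Cfsg.Agent.S1451

/-!
Bender–Glauberman, Theorem 9.1 in the form: a nontrivial `p`-subgroup `B` of a maximal subgroup `M` such
that every `B`-invariant `p'`-subgroup of `G` lies in `M` is contained in no other maximal subgroup.
-/

set_option autoImplicit false
set_option linter.style.haveILetI false

namespace Cfsg.Agent.Lib.Helper58.BG9

open Subgroup Cfsg.Agent.Lib.Helper28 Cfsg.Agent.Lib.Helper30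
open scoped commutatorElement

universe u

variable {G : Type u} [Group G]

theorem isSylowIn_mono {p : ℕ} {R X H : Subgroup G} (hR : IsSylowIn p R H) (hRX : R ≤ X)
    (hXH : X ≤ H) : IsSylowIn p R X :=
  ⟨hRX, hR.isPGroup, fun h => hR.not_dvd (by
    rw [← relIndex_mul_relIndex R X H hRX hXH]; exact Dvd.dvd.mul_right h _)⟩

theorem normalizer_sylow_le [Finite G] (hG : Cfsg.IsMinSimpleOddOrder G) {M B P : Subgroup G}
    (hM : IsCoatom M) {p : ℕ} [Fact p.Prime] (hp2 : p ≠ 2) (hB1 : B ≠ ⊥)
    (hinv : ∀ Y : Subgroup G, (Nat.card Y).Coprime p → B ≤ normalizer (Y : Set G) → Y ≤ M)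
    (hP : IsSylowIn p P M) (hBP : B ≤ P) : normalizer (P : Set G) ≤ M := by
  have hMsol := solvable_of_ne_top hG hM.1
  have hModd := odd_card_subgroup hG M
  have hP1 : P ≠ ⊥ := fun h => hB1 (le_bot_iff.mp (h ▸ hBP))
  by_cases hO : opPrimeIn p M = ⊥
  · have h1 := normalizer_eq_of_coatom hG hM (zL_ne_bot hP.isPGroup hP1) ((zL_le P).trans hP.le)
      (le_normalizer_zL_of_opPrimeIn hp2 hMsol hModd hP hO)
    exact (normalizer_le_normalizer_zL P).trans h1.le
  · intro x hx
    have hPK : P ≤ normalizer (opPrimeIn p M : Set G) := hP.le.trans (le_normalizer_opPrimeIn p M)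
    have hcop : (Nat.card (cj x (opPrimeIn p M))).Coprime p := by
      rw [card_cj]; exact opPrimeIn_coprime p M
    have hPK' : P ≤ normalizer (cj x (opPrimeIn p M) : Set G) := by
      have := cj_mono x hPK
      rwa [cj_eq_of_mem_normalizer hx, ← normalizer_cj] at this
    have h1 : cj x (opPrimeIn p M) ≤ M := hinv _ hcop (hBP.trans hPK')
    have h2 : cj x (opPrimeIn p M) ≤ opPrimeIn p M := sylow_inv_le_opPrimeIn hMsol hP h1 hcop hPK'
    have h3 : cj x (opPrimeIn p M) = opPrimeIn p M :=
      eq_of_le_of_card_ge h2 (by rw [card_cj])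
    have h4 : x ∈ normalizer (opPrimeIn p M : Set G) := mem_normalizer_of_cj_eq h3
    rw [normalizer_eq_of_coatom hG hM hO (opPrimeIn_le p M) (le_normalizer_opPrimeIn p M)] at h4
    exact h4

/-- commutators of a solvable group of odd order with `F` of rank at most `2` lie in `F`. -/
theorem commutator_mem_fitIn [Finite G] {H : Subgroup G} (hsol : Group.IsSolvable H)
    (hodd : Odd (Nat.card H)) (hr : Cfsg.RankLE 2 (Cfsg.fittingOf H)) {a b : G} (ha : a ∈ H)
    (hb : b ∈ H) : a * b * a⁻¹ * b⁻¹ ∈ fitIn H := by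
  have hr' : Cfsg.RankLE 2 (Cfsg.fittingSubgroup H) := fun q hq =>
    Cfsg.Agent.Lib.Helper77.pRankLE_of_mulEquiv
      ((Cfsg.fittingSubgroup H).equivMapOfInjective H.subtype H.subtype_injective) (hr q hq)
  have h1 := (Cfsg.Agent.S1451.result (G := H) hodd (Or.inr hr')).1
  have h2 : commutator H ≤ Cfsg.fittingSubgroup H := le_fitting inferInstance h1
  refine ⟨⁅(⟨a, ha⟩ : H), ⟨b, hb⟩⁆, h2 ?_, ?_⟩
  · exact commutator_mem_commutator (mem_top _) (mem_top _)
  · simp [commutatorElement_def]

theorem bg91 [Finite G] (hG : Cfsg.IsMinSimpleOddOrder G) {M B : Subgroup G} (hM : IsCoatom M)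
    {p : ℕ} [Fact p.Prime] (hBM : B ≤ M) (hBp : IsPGroup p B) (hB1 : B ≠ ⊥)
    (hinv : ∀ Y : Subgroup G, (Nat.card Y).Coprime p → B ≤ normalizer (Y : Set G) → Y ≤ M)
    {L : Subgroup G} (hL : IsCoatom L) (hBL : B ≤ L) : L = M := by
  have hp2 : p ≠ 2 := ne_two_of_isPGroup hG hBp hB1
  have hgrow : ∀ R P : Subgroup G, IsPGroup p P → R < P → R < P ⊓ normalizer (R : Set G) := by
    intro R P hP hlt
    obtain ⟨t, htP, htN, htT⟩ := exists_mem_normalizer_not_mem hP hlt
    exact lt_of_le_of_ne (le_inf hlt.le le_normalizer)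
      (fun h => htT (h ▸ (mem_inf.mpr ⟨htP, htN⟩)))
  have hnone : ∀ R H : Subgroup G, IsCoatom H → H ≠ M → B ≤ R → R ≤ H → R ≤ M → IsPGroup p R →
      False := by
    intro R
    induction R using WellFoundedGT.induction with
    | ind R ih =>
      intro H hH hHM hBR hRH hRM hRp
      have hR1 : R ≠ ⊥ := fun h => hB1 (le_bot_iff.mp (h ▸ hBR))
      have hRtop : R ≠ ⊤ := fun h => hM.1 (top_le_iff.mp (h ▸ hRM))
      obtain ⟨P, hP, hRP⟩ := exists_isSylowIn_ge hRM hRp
      obtain ⟨Q, hQ, hRQ⟩ := exists_isSylowIn_ge hRH hRp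
      have hNR : normalizer (R : Set G) ≤ M := by
        rcases eq_or_lt_of_le hRP with h | h
        · subst h
          exact normalizer_sylow_le hG hM hp2 hB1 hinv hP hBR
        · have h2 := hgrow R P hP.isPGroup h
          obtain ⟨D, hD, hND⟩ := exists_coatom_ge (normalizer_ne_top hG hR1 hRtop)
          by_cases hDM : D = M
          · exact hDM ▸ hND
          · exact (ih _ h2 D hD hDM (hBR.trans h2.le) (inf_le_right.trans hND)
              (inf_le_left.trans hP.le) (hP.isPGroup.to_le inf_le_left)).elim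
      have hRQ' : R = Q := by
        rcases eq_or_lt_of_le hRQ with h | h
        · exact h
        · have h2 := hgrow R Q hQ.isPGroup h
          exact (ih _ h2 H hH hHM (hBR.trans h2.le) (inf_le_left.trans hQ.le)
            (inf_le_right.trans hNR) (hQ.isPGroup.to_le inf_le_left)).elim
      subst hRQ'
      have hHsol := solvable_of_ne_top hG hH.1
      have hHodd := odd_card_subgroup hG H
      have hOM : opPrimeIn p H ≤ M := hinv _ (opPrimeIn_coprime p H)
        ((hBR.trans hRH).trans (le_normalizer_opPrimeIn p H))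
      have hFM : fitIn H ≤ M := (fitIn_le_sup p H).trans
        (sup_le ((opIn_le_of_isSylowIn hQ).trans hRM) (inf_le_left.trans hOM))
      by_cases hr : Cfsg.RankLE 2 (Cfsg.fittingOf H)
      · apply hHM
        have hle : H ≤ M := by
          intro h hh
          have hX : fitIn H ⊔ R ≤ H := sup_le (fitIn_le H) hRH
          have h1 : cj h R ≤ fitIn H ⊔ R := by
            intro y hy
            have hy' := mem_cj.mp hy
            have h3 : y = (h * (h⁻¹ * y * h) * h⁻¹ * (h⁻¹ * y * h)⁻¹) * (h⁻¹ * y * h) := by group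
            rw [h3]
            exact mul_mem (mem_sup_left (commutator_mem_fitIn hHsol hHodd hr hh (hRH hy')))
              (mem_sup_right hy')
          have h2 : IsSylowIn p (cj h R) H := by
            have := hQ.cj h
            rwa [cj_eq_of_mem hh] at this
          obtain ⟨k, hk, hkR⟩ := (isSylowIn_mono hQ le_sup_right hX).conj (isSylowIn_mono h2 h1 hX)
          have h4 : k⁻¹ * h ∈ normalizer (R : Set G) := by
            apply mem_normalizer_of_cj_eq
            rw [cj_mul, hkR, cj_inv_cj]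
          have h5 : k ∈ M := (sup_le hFM hRM) hk
          have h6 := M.mul_mem h5 (hNR h4)
          rwa [mul_inv_cancel_left] at h6
        exact ((hH.le_iff.mp hle).resolve_left hM.1).symm
      · exact hHM (uniq_eq (fitting_uniq hG (h1397 hG) hH hr) hH (fitIn_le H) hM hFM)
  by_contra hLM
  exact hnone B L hL hLM le_rfl hBL hBM hBp

end Cfsg.Agent.Lib.Helper58.BG9
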