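import Cfsg.Agent.Lib.Helper58.BG9c
import Cfsg.Agent.S1324

/-!
Bender–Glauberman, Theorem 9.1 (both forms) and Lemma 9.3.
-/

set_option autoImplicit false
set_option linter.style.haveILetI false

namespace Cfsg.Agent.Lib.Helper58.BG9

open Subgroup Cfsg.Agent.Lib.Helper28 Cfsg.Agent.Lib.Helper30

universe u

variable {G : Type u} [Group G]

theorem sq_le_card_of_not_isCyclic [Finite G] {p : ℕ} [hp : Fact p.Prime] {B : Subgroup G}
    (hB : IsPGroup p B) (hnc : ¬ IsCyclic B) : p ^ 2 ≤ Nat.card B := by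
  obtain ⟨n, hn⟩ := IsPGroup.iff_card.mp hB
  rw [hn]
  apply Nat.pow_le_pow_right hp.out.pos
  by_contra hlt
  apply hnc
  have : n = 0 ∨ n = 1 := by omega
  rcases this with rfl | rfl
  · rw [pow_zero] at hn
    haveI : Subsingleton B := (Nat.card_eq_one_iff_unique.mp hn).1
    exact isCyclic_of_subsingleton
  · rw [pow_one] at hn
    exact isCyclic_of_prime_card hn

theorem ne_bot_of_sq_le_card {p : ℕ} [hp : Fact p.Prime] {B : Subgroup G}
    (hB2 : p ^ 2 ≤ Nat.card B) : B ≠ ⊥ := by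
  rintro rfl
  rw [card_bot] at hB2
  have := Nat.one_lt_pow (n := 2) (by norm_num) hp.out.one_lt
  omega

/-- B-G 9.1, hypothesis (b). -/
theorem bg91b [Finite G] (hG : Cfsg.IsMinSimpleOddOrder G) {M B : Subgroup G} (hM : IsCoatom M)
    {p : ℕ} [Fact p.Prime] (hBM : B ≤ M) (hBp : IsPGroup p B) (hB1 : B ≠ ⊥)
    (hinv : ∀ Y : Subgroup G, (Nat.card Y).Coprime p → B ≤ normalizer (Y : Set G) → Y ≤ M) :
    Cfsg.InUniqueMaximal B :=
  uniq_intro hM hBM fun _ hL hBL => bg91 hG hM hBM hBp hB1 hinv hL hBL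

/-- B-G 9.1, hypothesis (a). -/
theorem bg91a [Finite G] (hG : Cfsg.IsMinSimpleOddOrder G) {M B : Subgroup G} (hM : IsCoatom M)
    {p : ℕ} [hp : Fact p.Prime] (hBM : B ≤ M) (hBe : Cfsg.IsElementaryAbelian p B)
    (hB2 : p ^ 2 ≤ Nat.card B)
    (h : ∀ b ∈ B, b ≠ 1 → centralizer ({b} : Set G) ≤ M) : Cfsg.InUniqueMaximal B := by
  refine bg91b hG hM hBM (isPGroup_of_elementary hBe) (ne_bot_of_sq_le_card hB2) ?_
  intro Y hY hBY
  have hY' : ¬ p ∣ Nat.card Y := fun hd => by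
    have := Nat.Coprime.eq_one_of_dvd hY.symm hd
    exact hp.out.one_lt.ne' this
  rw [Cfsg.Agent.S1324.result p B Y hBe hB2 hY' hBY]
  refine iSup_le fun B₁ => ?_
  obtain ⟨B₁, hB₁B, hidx⟩ := B₁
  have hB₁ : B₁ ≠ ⊥ := by
    rintro rfl
    rw [relIndex_bot_left] at hidx
    have : p < p ^ 2 := by
      have := hp.out.one_lt
      nlinarith
    omega
  obtain ⟨⟨b, hb⟩, hb1⟩ := Subgroup.ne_bot_iff_exists_ne_one.mp hB₁
  have hb1' : (b : G) ≠ 1 := fun h => hb1 (Subtype.ext h)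
  refine inf_le_right.trans (le_trans ?_ (h b (hB₁B hb) hb1'))
  exact centralizer_le (Set.singleton_subset_iff.mpr hb)

/-- B-G 9.3. -/
theorem bg93 [Finite G] (hG : Cfsg.IsMinSimpleOddOrder G) {L K : Subgroup G}
    (hL : Cfsg.InUniqueMaximal L) (hK : K ≤ centralizer (L : Set G)) (hKr : ¬ Cfsg.RankLE 1 K) :
    Cfsg.InUniqueMaximal K := by
  obtain ⟨M, ⟨hM, hLM⟩, _⟩ := id hL
  have hL1 := ne_bot_of_uniq hG hL
  have hLtop := uniq_ne_top hL
  unfold Cfsg.RankLE at hKr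
  push Not at hKr
  obtain ⟨p, hp, hKr⟩ := hKr
  haveI : Fact p.Prime := ⟨hp⟩
  obtain ⟨E, hEK, hE, hk⟩ := exists_of_not_pRankLE hKr
  have hE2 : p ^ 2 ≤ Nat.card E := pow_succ_le_card_of_lt (isPGroup_of_elementary hE) hk
  have hNL : normalizer (L : Set G) ≤ M :=
    le_of_uniq hL hM hLM le_normalizer (normalizer_ne_top hG hL1 hLtop)
  have hCL : centralizer (L : Set G) ≤ M := (centralizer_le_normalizer _).trans hNL
  have hKtop : K ≠ ⊤ := fun h => hM.1 (top_le_iff.mp (h ▸ hK.trans hCL))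
  refine uniq_mono (bg91a hG hM ((hEK.trans hK).trans hCL) hE hE2 ?_) hEK hKtop
  intro b hb hb1
  refine le_of_uniq hL hM hLM ?_ (centralizer_singleton_ne_top hG hb1)
  intro x hx
  rw [mem_centralizer_singleton_iff]
  exact mem_centralizer_iff.mp (hK (hEK hb)) x hx

end Cfsg.Agent.Lib.Helper58.BG9
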