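import Cfsg.Agent.Lib.Helper58.BG9e

/-!
Bender–Glauberman, Theorem 9.6 (the Uniqueness Theorem) from Lemma 9.5 (`SCN_3 ⊆ 𝒰`).
-/

set_option autoImplicit false
set_option linter.style.haveILetI false

namespace Cfsg.Agent.Lib.Helper58.BG9

open Subgroup Cfsg.Agent.Lib.Helper28 Cfsg.Agent.Lib.Helper30

universe u

variable {G : Type u} [Group G]

/-- The text of S1402 (B-G Lemma 9.5). -/
def H1402 (G : Type u) [Group G] : Prop :=
  ∀ (p : ℕ) [Fact p.Prime] (P : Sylow p G) (A : Subgroup G), Cfsg.IsSCN (P : Subgroup G) A →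
    ¬ Cfsg.PRankLE p 2 ↥A → Cfsg.InUniqueMaximal A

theorem isMulCommutative_of_isSCN {P A : Subgroup G} (hA : Cfsg.IsSCN P A) : IsMulCommutative A := by
  refine ⟨⟨fun a b => Subtype.ext ?_⟩⟩
  have hb : (b : G) ∈ centralizer (A : Set G) := by
    have : (b : G) ∈ P ⊓ centralizer (A : Set G) := by
      rw [hA.2.2]; exact b.2
    exact this.2
  exact mem_centralizer_iff.mp hb a a.2

/-- every elementary abelian subgroup of order at least `q ^ 3` is a uniqueness subgroup. -/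
theorem elementary_uniq [Finite G] (hG : Cfsg.IsMinSimpleOddOrder G) (h96 : H1402 G) {q : ℕ}
    [hq : Fact q.Prime] {E : Subgroup G} (hE : Cfsg.IsElementaryAbelian q E)
    (hE3 : q ^ 2 < Nat.card E) : Cfsg.InUniqueMaximal E := by
  have hEp := isPGroup_of_elementary hE
  have hE1 : E ≠ ⊥ := by
    rintro rfl
    rw [card_bot] at hE3
    have := Nat.one_le_pow 2 q hq.out.pos
    omega
  have hq2 : q ≠ 2 := ne_two_of_isPGroup hG hEp hE1
  obtain ⟨P, hEP⟩ := hEp.exists_le_sylow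
  obtain ⟨A, hA, hA3⟩ := exists_scn3 hq2 P.2 (not_pRankLE_of_le hEP hE hE3)
  have hAU := h96 q P A hA hA3
  refine bg94 hG (isMulCommutative_of_isSCN hA) hA3 hAU hEp ?_
    (not_pRankLE_of_le (le_centralizer_self_of_elementary hE) hE hE3)
  intro hcyc
  obtain ⟨g, hg⟩ := hcyc.exists_generator
  have h1 : Nat.card E = orderOf g := (orderOf_eq_card_of_forall_mem_zpowers hg).symm
  have h2 : orderOf g ∣ q := orderOf_dvd_of_pow_eq_one (Subtype.ext (hE.2 g g.2))
  have h3 := Nat.le_of_dvd hq.out.pos h2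
  have h4 : q ^ 1 < q ^ 2 := Nat.pow_lt_pow_right hq.out.one_lt (by norm_num)
  rw [pow_one] at h4
  omega

/-- B-G Theorem 9.6 (the Uniqueness Theorem). -/
theorem bg96 [Finite G] (hG : Cfsg.IsMinSimpleOddOrder G) (h96 : H1402 G) {K : Subgroup G}
    (hK : K ≠ ⊤) (hK2 : ¬ Cfsg.RankLE 1 K)
    (hK3 : ¬ Cfsg.RankLE 2 K ∨ ¬ Cfsg.RankLE 2 (centralizer (K : Set G))) :
    Cfsg.InUniqueMaximal K := by
  rcases hK3 with h | h
  · unfold Cfsg.RankLE at h
    push Not at h
    obtain ⟨q, hq, h⟩ := h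
    haveI : Fact q.Prime := ⟨hq⟩
    obtain ⟨E, hEK, hE, hE3⟩ := exists_of_not_pRankLE h
    exact uniq_mono (elementary_uniq hG h96 hE hE3) hEK hK
  · unfold Cfsg.RankLE at h
    push Not at h
    obtain ⟨q, hq, h⟩ := h
    haveI : Fact q.Prime := ⟨hq⟩
    obtain ⟨E, hEK, hE, hE3⟩ := exists_of_not_pRankLE h
    exact bg93 hG (elementary_uniq hG h96 hE hE3) (le_centralizer_symm hEK) hK2

end Cfsg.Agent.Lib.Helper58.BG9
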