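import Cfsg.Agent.Lib.Helper27.CPC
import Cfsg.Agent.Lib.Helper27.CharSub
import Cfsg.Agent.Lib.Helper27.FixedPoint
import Cfsg.Agent.Lib.Helper27.Coprime
import Cfsg.Agent.Lib.Helper11.AxB
import Cfsg.Agent.Lib.Helper1.Coprime2

set_option autoImplicit false
set_option linter.style.haveILetI false

namespace Cfsg.Agent.Lib.Helper58.Flav19

open Subgroup Cfsg
open scoped commutatorElement

universe u

variable {G : Type u} [Group G] [Finite G]

open Cfsg.Agent.Lib.Helper27 in
/-- Core case `O_{q'}(H) = 1`. -/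
theorem core {p q : ℕ} [Fact p.Prime] [Fact q.Prime] {H P X W : Subgroup G} {z : G}
    (hHn : H.Normal) (hP : IsPGroup p P) (hHp : ¬ p ∣ Nat.card H)
    (hsol : Group.IsSolvable ↥⁅H, P⁆)
    (hzH : z ∈ H) (hz : IsPGroup q (zpowers z))
    (hO : ∀ N : Subgroup G, N ≤ H → H ≤ normalizer (N : Set G) → ¬ q ∣ Nat.card N → N = ⊥)
    (hXH : X ≤ H) (hXz : X ≤ centralizer {z}) (hXq : ¬ q ∣ Nat.card X)
    (hXn : H ⊓ centralizer {z} ≤ normalizer (X : Set G)) (hPX : P ≤ normalizer (X : Set G))
    (hWq : ¬ q ∣ Nat.card W)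
    (hWn : H ⊓ centralizer (P : Set G) ≤ normalizer (W : Set G)) :
    X ⊓ W = ⊥ ∧ ⁅X, P⁆ = ⊥ := by
  set K : Subgroup G := ⁅H, P⁆ with hK
  have hKH : K ≤ H := commutator_le_left H P
  have hKn : H ⊔ P ≤ normalizer (K : Set G) :=
    Cfsg.Agent.Lib.Helper1.sup_le_normalizer_commutator H P
  have hHK : H ≤ normalizer (K : Set G) := le_sup_left.trans hKn
  have hPK : P ≤ normalizer (K : Set G) := le_sup_right.trans hKn
  -- `O_{q'}(K) = 1`
  have hOK : pPrimeCore q K = ⊥ := by
    haveI := Cfsg.Agent.Lib.Helper28.pPrimeCore_characteristic (G := K) q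
    have h1 : (pPrimeCore q K).map K.subtype = ⊥ := by
      apply hO _ ((map_subtype_le _).trans hKH)
        (hHK.trans (le_normalizer_map_of_characteristic _))
      rw [card_subtype]
      exact Cfsg.Agent.Lib.Helper28.pPrimeCore_not_dvd q
    exact (map_eq_bot_iff_of_injective _ K.subtype_injective).1 h1
  have hCK := centralizer_pCore_le_of_solvable q hsol hOK
  set Q : Subgroup G := (pCore q K).map K.subtype with hQ
  have hQq : IsPGroup q Q := (Cfsg.Agent.Lib.Helper28.pCore_isPGroup q).map _
  have hQK : Q ≤ K := map_subtype_le _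
  have hQn : normalizer (K : Set G) ≤ normalizer (Q : Set G) := by
    haveI := Cfsg.Agent.Lib.Helper28.pCore_characteristic (G := K) q
    exact le_normalizer_map_of_characteristic _
  have hHQ : H ≤ normalizer (Q : Set G) := hHK.trans hQn
  have hPQ : P ≤ normalizer (Q : Set G) := hPK.trans hQn
  have hCQ : K ⊓ centralizer (Q : Set G) ≤ Q := by
    intro g hg
    have h1 : (⟨g, hg.1⟩ : K) ∈ centralizer (pCore q K : Set K) := by
      rw [mem_centralizer_iff]
      intro y hy
      apply Subtype.ext
      exact (mem_centralizer_iff.1 hg.2) y ⟨y, hy, rfl⟩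
    exact ⟨_, hCK h1, rfl⟩
  have hXQ0 : Q ⊓ X = ⊥ :=
    Cfsg.Agent.Lib.Helper28.inf_eq_bot_of_isPGroup_of_coprime hQq
      ((Cfsg.Agent.Lib.Helper28.coprime_iff_not_dvd _).2 hXq)
  -- Step 1 : `X` centralizes `Q`
  have hXQ : X ≤ centralizer (Q : Set G) := by
    apply Cfsg.Agent.Lib.Helper11.thompson_AxB (zpowers z) X hz
      ((Cfsg.Agent.Lib.Helper28.coprime_iff_not_dvd _).2 hXq)
      (by rw [centralizer_zpowers_eq]; exact hXz) Q hQq (zpowers_le.2 (hHQ hzH)) (hXH.trans hHQ)
    intro x hx
    rw [mem_centralizer_iff]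
    intro c hc
    have hc1 : c ∈ Q := hc.1
    have hc2 : c ∈ centralizer ({z} : Set G) := by
      have := hc.2
      rwa [centralizer_zpowers_eq] at this
    have hcn : c ∈ normalizer (X : Set G) := hXn ⟨hKH (hQK hc1), hc2⟩
    have hxn : x ∈ normalizer (Q : Set G) := hHQ (hXH hx)
    have h1 : c * x * c⁻¹ * x⁻¹ ∈ Q ⊓ X := by
      constructor
      · have : x * c⁻¹ * x⁻¹ ∈ Q := (mem_normalizer_iff.1 hxn _).1 (Q.inv_mem hc1)
        have h2 := Q.mul_mem hc1 this
        simpa [mul_assoc] using h2
      · have : c * x * c⁻¹ ∈ X := (mem_normalizer_iff.1 hcn _).1 hx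
        exact X.mul_mem this (X.inv_mem hx)
    rw [hXQ0, mem_bot] at h1
    calc c * x = (c * x * c⁻¹ * x⁻¹) * (x * c) := by group
      _ = x * c := by rw [h1, one_mul]
  -- Step 2
  have h2 : ⁅X, P⁆ = ⊥ := by
    have ha : ⁅X, P⁆ ≤ X := by
      rw [commutator_le]
      intro x hx a ha
      rw [commutatorElement_def]
      have : a * x⁻¹ * a⁻¹ ∈ X := (mem_normalizer_iff.1 (hPX ha) _).1 (X.inv_mem hx)
      have h3 := X.mul_mem hx this
      simpa [mul_assoc] using h3
    have hb : ⁅X, P⁆ ≤ K := commutator_mono hXH le_rfl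
    have hc : ⁅X, P⁆ ≤ Q ⊓ X := le_inf (fun g hg => hCQ ⟨hb hg, hXQ (ha hg)⟩) ha
    rw [hXQ0] at hc
    exact le_bot_iff.1 hc
  refine ⟨?_, h2⟩
  -- Step 3
  set C : Subgroup G := H ⊓ centralizer (Q : Set G) with hC
  have hnC : normalizer (Q : Set G) ≤ normalizer ((centralizer (Q : Set G) : Subgroup G) : Set G) := by
    apply le_normalizer_of_conj_mem
    intro b hb x hx
    rw [mem_centralizer_iff] at hx ⊢
    intro y hy
    have hy' : b⁻¹ * y * b ∈ Q := by
      have := (mem_normalizer_iff.1 ((normalizer (Q : Set G)).inv_mem hb) y).1 hy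
      simpa using this
    have := hx _ hy'
    calc y * (b * x * b⁻¹) = b * ((b⁻¹ * y * b) * x) * b⁻¹ := by group
      _ = b * (x * (b⁻¹ * y * b)) * b⁻¹ := by rw [this]
      _ = b * x * b⁻¹ * y := by group
  have hHnH : ∀ A : Subgroup G, A ≤ normalizer (H : Set G) := fun A => by
    rw [normalizer_eq_top_iff.2 hHn]; exact le_top
  have hHC : H ≤ normalizer (C : Set G) := le_normalizer_inf (hHnH H) (hHQ.trans hnC)
  have hPC : P ≤ normalizer (C : Set G) := le_normalizer_inf (hHnH P) (hPQ.trans hnC)
  have hCP : ⁅C, P⁆ ≤ C ⊓ Q := by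
    have ha : ⁅C, P⁆ ≤ C := by
      rw [commutator_le]
      intro x hx a ha
      rw [commutatorElement_def]
      have : a * x⁻¹ * a⁻¹ ∈ C := (mem_normalizer_iff.1 (hPC ha) _).1 (C.inv_mem hx)
      have h3 := C.mul_mem hx this
      simpa [mul_assoc] using h3
    have hb : ⁅C, P⁆ ≤ K := commutator_mono inf_le_left le_rfl
    exact le_inf ha (fun g hg => hCQ ⟨hb hg, (ha hg).2⟩)
  set W1 : Subgroup G := W ⊓ C with hW1
  have hW1q : ¬ q ∣ Nat.card W1 := not_dvd_card_of_le inf_le_left hWq
  have hCW1 : C ≤ normalizer (W1 : Set G) := by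
    intro c hc
    have hNp : ¬ p ∣ Nat.card ↥⁅C, P⁆ :=
      not_dvd_card_of_le ((hCP.trans inf_le_left).trans inf_le_left) hHp
    obtain ⟨c0, hc0, hc0c⟩ := exists_centralizer_mem_coset hP hNp
      (le_sup_right.trans (Cfsg.Agent.Lib.Helper1.sup_le_normalizer_commutator C P)) c (by
        intro a ha
        have h3 : ⁅c, a⁆ ∈ ⁅C, P⁆ := commutator_mem_commutator hc ha
        have h4 := (⁅C, P⁆).inv_mem h3
        rw [commutatorElement_inv, commutatorElement_def] at h4
        exact h4)
    -- `c = (c0 * c⁻¹)⁻¹ * c0`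
    have hu : c0 * c⁻¹ ∈ C ⊓ Q := hCP hc0c
    have hc0C : c0 ∈ C := by
      have := C.mul_mem hu.1 hc
      simpa using this
    have hc0n : c0 ∈ normalizer (W1 : Set G) :=
      le_normalizer_inf (A := zpowers c0) (zpowers_le.2 (hWn ⟨hc0C.1, hc0⟩))
        (zpowers_le.2 (le_normalizer hc0C)) (mem_zpowers c0)
    have hun : c0 * c⁻¹ ∈ normalizer (W1 : Set G) := by
      apply centralizer_le_normalizer
      rw [mem_centralizer_iff]
      intro w hw
      exact ((mem_centralizer_iff.1 hw.2.2) _ hu.2).symm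
    have := (normalizer (W1 : Set G)).mul_mem ((normalizer (W1 : Set G)).inv_mem hun) hc0n
    simpa using this
  have hW1b : W1 = ⊥ := by
    haveI := Cfsg.Agent.Lib.Helper28.pPrimeCore_characteristic (G := C) q
    have h1 : (pPrimeCore q C).map C.subtype = ⊥ := by
      apply hO _ ((map_subtype_le _).trans inf_le_left)
        (hHC.trans (le_normalizer_map_of_characteristic _))
      rw [card_subtype]
      exact Cfsg.Agent.Lib.Helper28.pPrimeCore_not_dvd q
    have h3 := le_map_pPrimeCore (p := q) (D := W1) (H := C) inf_le_right hCW1 hW1q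
    rw [h1] at h3
    exact le_bot_iff.1 h3
  rw [← le_bot_iff, ← hW1b]
  exact le_inf inf_le_right (le_inf (inf_le_left.trans hXH) (inf_le_left.trans hXQ))


omit [Finite G] in
theorem not_dvd_card_map {G' : Type u} [Group G'] (f : G →* G') {q : ℕ} {A : Subgroup G}
    (h : ¬ q ∣ Nat.card A) : ¬ q ∣ Nat.card (A.map f) :=
  fun hd => h (hd.trans (Subgroup.card_map_dvd A f))

open Cfsg.Agent.Lib.Helper27 in
/-- General case, by passing to `G / O_{q'}(H)`. -/
theorem main {p q : ℕ} [Fact p.Prime] [Fact q.Prime] {H P X W : Subgroup G} {z : G}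
    (hHn : H.Normal) (hP : IsPGroup p P) (hHp : ¬ p ∣ Nat.card H)
    (hsol : Group.IsSolvable ↥⁅H, P⁆)
    (hzH : z ∈ H) (hz : IsPGroup q (zpowers z))
    (hXH : X ≤ H) (hXz : X ≤ centralizer {z}) (hXq : ¬ q ∣ Nat.card X)
    (hXn : H ⊓ centralizer {z} ≤ normalizer (X : Set G)) (hPX : P ≤ normalizer (X : Set G))
    (hWq : ¬ q ∣ Nat.card W)
    (hWn : H ⊓ centralizer (P : Set G) ≤ normalizer (W : Set G)) :
    (X ⊓ W) ⊔ ⁅X, P⁆ ≤ (pPrimeCore q H).map H.subtype := by
  set N : Subgroup G := (pPrimeCore q H).map H.subtype with hN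
  have hNH : N ≤ H := map_subtype_le _
  have hNq : ¬ q ∣ Nat.card N := by
    rw [hN, card_subtype]
    exact Cfsg.Agent.Lib.Helper28.pPrimeCore_not_dvd q
  have hNp : ¬ p ∣ Nat.card N := not_dvd_card_of_le hNH hHp
  haveI hNn : N.Normal := by
    haveI := Cfsg.Agent.Lib.Helper28.pPrimeCore_characteristic (G := H) q
    have h1 := le_normalizer_map_of_characteristic (K := H) (pPrimeCore q H)
    rw [normalizer_eq_top_iff.2 hHn] at h1
    exact normalizer_eq_top_iff.1 (top_le_iff.1 h1)
  set π : G →* G ⧸ N := QuotientGroup.mk' N with hπ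
  have hπs : Function.Surjective π := QuotientGroup.mk'_surjective N
  have hker : ∀ g : G, π g = 1 ↔ g ∈ N := fun g => QuotientGroup.eq_one_iff g
  have hnorm : ∀ (A : Subgroup G) (g : G), g ∈ normalizer (A : Set G) →
      π g ∈ normalizer ((A.map π : Subgroup (G ⧸ N)) : Set (G ⧸ N)) := by
    intro A g hg
    exact le_normalizer_map π ⟨g, hg, rfl⟩
  have key := core (p := p) (q := q) (H := H.map π) (P := P.map π) (X := X.map π) (W := W.map π)
    (z := π z) (hHn.map π hπs) (hP.map π) (not_dvd_card_map π hHp)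
    (by
      rw [← map_commutator]
      exact Group.isSolvable_of_surjective (π.subgroupMap_surjective ⁅H, P⁆))
    (mem_map_of_mem π hzH)
    (by rw [← MonoidHom.map_zpowers]; exact hz.map π)
    (by
      intro N1 hN1H hN1n hN1q
      set N2 : Subgroup G := N1.comap π ⊓ H with hN2
      have h1 : N2 ≤ N := by
        apply le_map_pPrimeCore inf_le_right
        · apply le_normalizer_inf _ le_normalizer
          apply le_normalizer_of_conj_mem
          intro b hb x hx
          have hb' : π b ∈ normalizer (N1 : Set (G ⧸ N)) := hN1n (mem_map_of_mem π hb)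
          have := (mem_normalizer_iff.1 hb' _).1 (mem_comap.1 hx)
          rw [mem_comap]
          simpa using this
        · intro hd
          obtain ⟨g, hg⟩ := exists_prime_orderOf_dvd_card' (G := N2) q hd
          have hg1 : π (g : G) ∈ N1 := g.2.1
          have hg2 : (π (g : G)) ^ q = 1 := by
            rw [← map_pow, ← hg, ← Subgroup.coe_pow, pow_orderOf_eq_one]
            simp
          have hg3 : π (g : G) = 1 := by
            have h3 : orderOf (π (g : G)) ∣ q := orderOf_dvd_of_pow_eq_one hg2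
            have h4 : orderOf (π (g : G)) ∣ Nat.card N1 := by
              have := orderOf_dvd_natCard (⟨π (g : G), hg1⟩ : N1)
              rwa [Subgroup.orderOf_mk] at this
            rcases (Nat.dvd_prime (Fact.out : q.Prime)).1 h3 with h5 | h5
            · exact orderOf_eq_one_iff.1 h5
            · exact absurd (h5 ▸ h4) hN1q
          have hg4 : (g : G) ∈ N := (hker _).1 hg3
          have h6 : orderOf (g : G) ∣ Nat.card N := by
            have := orderOf_dvd_natCard (⟨(g : G), hg4⟩ : N)
            rwa [Subgroup.orderOf_mk] at this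
          rw [Subgroup.orderOf_coe, hg] at h6
          exact hNq h6
      rw [eq_bot_iff]
      intro y hy
      obtain ⟨h, hh, rfl⟩ := hN1H hy
      rw [mem_bot, hker]
      exact h1 ⟨hy, hh⟩)
    (map_mono hXH)
    (by
      rintro _ ⟨x, hx, rfl⟩
      rw [mem_centralizer_singleton_iff, ← map_mul, ← map_mul,
        mem_centralizer_singleton_iff.1 (hXz hx)])
    (not_dvd_card_map π hXq)
    (by
      rintro _ ⟨⟨h, hh, rfl⟩, hc⟩
      replace hc : π h ∈ centralizer {π z} := hc
      replace hh : h ∈ H := hh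
      rw [mem_centralizer_singleton_iff] at hc
      obtain ⟨c, hc1, hc2⟩ := exists_centralizer_mem_coset hz hNq
        (A := zpowers z) (N := N) (by rw [normalizer_eq_top_iff.2 hNn]; exact le_top) h (by
          intro a ha
          obtain ⟨k, rfl⟩ := mem_zpowers_iff.1 ha
          rw [← hker]
          have h3 : Commute (π z) (π h) := hc.symm
          have h4 : Commute (π z ^ k) (π h) := h3.zpow_left k
          simp only [map_mul, map_inv, map_zpow]
          rw [h4.eq]
          group)
      rw [centralizer_zpowers_eq] at hc1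
      have hcH : c ∈ H := by
        have := H.mul_mem (hNH hc2) hh
        simpa using this
      have hπc : π c = π h := by
        have := (hker _).2 hc2
        rw [map_mul, map_inv, mul_inv_eq_one] at this
        exact this
      rw [← hπc]
      exact hnorm X c (hXn ⟨hcH, hc1⟩))
    (by
      rintro _ ⟨a, ha, rfl⟩
      exact hnorm X a (hPX ha))
    (not_dvd_card_map π hWq)
    (by
      rintro _ ⟨⟨h, hh, rfl⟩, hc⟩
      replace hc : π h ∈ centralizer ((P.map π : Subgroup (G ⧸ N)) : Set (G ⧸ N)) := hc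
      replace hh : h ∈ H := hh
      rw [mem_centralizer_iff] at hc
      obtain ⟨c, hc1, hc2⟩ := exists_centralizer_mem_coset hP hNp
        (A := P) (N := N) (by rw [normalizer_eq_top_iff.2 hNn]; exact le_top) h (by
          intro a ha
          rw [← hker]
          have h3 := hc (π a) (mem_map_of_mem π ha)
          simp only [map_mul, map_inv]
          rw [h3]
          group)
      have hcH : c ∈ H := by
        have := H.mul_mem (hNH hc2) hh
        simpa using this
      have hπc : π c = π h := by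
        have := (hker _).2 hc2
        rw [map_mul, map_inv, mul_inv_eq_one] at this
        exact this
      rw [← hπc]
      exact hnorm W c (hWn ⟨hcH, hc1⟩))
  apply sup_le
  · intro g hg
    rw [← hker, ← mem_bot, ← key.1]
    exact ⟨mem_map_of_mem π hg.1, mem_map_of_mem π hg.2⟩
  · intro g hg
    rw [← hker, ← mem_bot, ← key.2, ← map_commutator]
    exact mem_map_of_mem π hg

end Cfsg.Agent.Lib.Helper58.Flav19
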