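import Cfsg.Agent.Lib.Helper80.PSolv
import Cfsg.Agent.Lib.Helper80.Cores
import Cfsg.Agent.Lib.Helper53.YMin2
import Cfsg.Agent.Lib.Helper30.SZ
import Cfsg.Agent.Lib.Helper1.Tools

set_option autoImplicit false
set_option linter.style.haveILetI false

namespace Cfsg.Agent.Lib.Helper58.PL2

open Subgroup Cfsg

universe u

/-- `X` has a normal `p`-complement. -/
def PN (p : ℕ) (X : Type*) [Group X] : Prop :=
  ∃ K : Subgroup X, K.Normal ∧ ¬ p ∣ Nat.card K ∧ ∃ k : ℕ, K.index = p ^ k

/-- every maximal subgroup is `p`-nilpotent or has prime index. -/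
def Hyp (p : ℕ) (G : Type*) [Group G] : Prop :=
  ∀ M : Subgroup G, IsCoatom M → PN p ↥M ∨ (M.index).Prime

/-- a normal chain of shape `p', p, p', p`. -/
def Concl (p : ℕ) (G : Type*) [Group G] : Prop :=
  ∃ A B C : Subgroup G, A.Normal ∧ B.Normal ∧ C.Normal ∧ A ≤ B ∧ B ≤ C ∧ ¬ p ∣ Nat.card A ∧
    (∃ k : ℕ, A.relIndex B = p ^ k) ∧ ¬ p ∣ B.relIndex C ∧ ∃ k : ℕ, C.index = p ^ k

theorem PN.of_surjective {p : ℕ} (hp : p.Prime) {X Y : Type*} [Group X] [Group Y] [Finite X]
    (f : X →* Y) (hf : Function.Surjective f) (h : PN p X) : PN p Y := by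
  obtain ⟨K, hK, hKp, k, hk⟩ := h
  refine ⟨K.map f, hK.map f hf, fun hd => hKp (hd.trans (Subgroup.card_map_dvd K f)), ?_⟩
  have h1 : (K.map f).index ∣ p ^ k := hk ▸ Subgroup.index_map_dvd K hf
  obtain ⟨j, _, hj⟩ := (Nat.dvd_prime_pow hp).1 h1
  exact ⟨j, hj⟩

theorem Hyp.quot {p : ℕ} (hp : p.Prime) {G : Type u} [Group G] [Finite G] (h : Hyp p G)
    (N : Subgroup G) [N.Normal] : Hyp p (G ⧸ N) := by
  intro X hX
  have hs := QuotientGroup.mk'_surjective N
  rcases h _ (Cfsg.Agent.Lib.Helper53.isCoatom_comap_mk hX) with h1 | h1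
  · left
    exact PN.of_surjective hp ((QuotientGroup.mk' N).subgroupComap X)
      (MonoidHom.subgroupComap_surjective_of_surjective _ _ hs) h1
  · right
    rwa [Subgroup.index_comap_of_surjective _ hs] at h1

theorem relIndex_comap_comap {G H : Type*} [Group G] [Group H] (f : G →* H)
    (hf : Function.Surjective f) (A B : Subgroup H) :
    (A.comap f).relIndex (B.comap f) = A.relIndex B := by
  rw [Subgroup.relIndex_comap, Subgroup.map_comap_eq_self_of_surjective hf]

theorem card_comap_mk {G : Type u} [Group G] [Finite G] (N : Subgroup G) [N.Normal]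
    (A : Subgroup (G ⧸ N)) :
    Nat.card (A.comap (QuotientGroup.mk' N)) = Nat.card N * Nat.card A :=
  QuotientGroup.card_preimage_mk N (A : Set (G ⧸ N))

theorem le_comap_mk {G : Type u} [Group G] (N : Subgroup G) [N.Normal]
    (A : Subgroup (G ⧸ N)) : N ≤ A.comap (QuotientGroup.mk' N) := by
  intro n hn
  rw [Subgroup.mem_comap]
  have : (QuotientGroup.mk' N) n = 1 := (QuotientGroup.eq_one_iff n).2 hn
  rw [this]; exact one_mem _

/-- pull back along a normal `p'`-subgroup. -/
theorem Concl.pull_pprime {p : ℕ} (hp : p.Prime) {G : Type u} [Group G] [Finite G]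
    (N : Subgroup G) [N.Normal] (hN : ¬ p ∣ Nat.card N) (h : Concl p (G ⧸ N)) : Concl p G := by
  obtain ⟨A, B, C, hA, hB, hC, hAB, hBC, hAp, hABp, hBCp, hCp⟩ := h
  have hs := QuotientGroup.mk'_surjective N
  refine ⟨A.comap (QuotientGroup.mk' N), B.comap (QuotientGroup.mk' N),
    C.comap (QuotientGroup.mk' N), hA.comap _, hB.comap _, hC.comap _, Subgroup.comap_mono hAB,
    Subgroup.comap_mono hBC, ?_, ?_, ?_, ?_⟩
  · rw [card_comap_mk]
    intro hd
    rcases (Nat.Prime.dvd_mul hp).1 hd with h1 | h1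
    · exact hN h1
    · exact hAp h1
  · rw [relIndex_comap_comap _ hs]; exact hABp
  · rw [relIndex_comap_comap _ hs]; exact hBCp
  · rw [Subgroup.index_comap_of_surjective _ hs]; exact hCp

open Cfsg.Agent.Lib.Helper30 in
/-- a normal subgroup `A = T Y` with `T ≤ Φ(G)` a normal `p`-group and `Y` a `p'`-group has
`Y` normal. -/
theorem normal_of_frattini {p : ℕ} (hp : p.Prime) {G : Type u} [Group G] [Finite G]
    (T : Subgroup G) [T.Normal] (hT : IsPGroup p T) (hTF : T ≤ frattini G)
    (A Y : Subgroup G) [A.Normal] (hA : A = T ⊔ Y) (hY : ¬ p ∣ Nat.card Y) : Y.Normal := by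
  haveI : Fact p.Prime := ⟨hp⟩
  obtain ⟨a, ha⟩ := IsPGroup.iff_card.1 hT
  have hcop : (Nat.card T).Coprime (Nat.card Y) := by
    rw [ha]; exact Nat.Coprime.pow_left _ ((Nat.Prime.coprime_iff_not_dvd hp).2 hY)
  have hsolT : Group.IsSolvable T := by
    haveI := hT.isNilpotent
    infer_instance
  have key : normalizer (Y : Set G) ⊔ frattini G = ⊤ := by
    rw [eq_top_iff]
    intro g _
    have h1 : cj g Y ≤ T ⊔ Y := by
      rw [← hA, ← cj_normal g A]
      exact cj_mono g (hA ▸ le_sup_right)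
    obtain ⟨x, hx, hxY⟩ := sz_conj T Y (cj g Y) (by
      rw [normalizer_eq_top_iff.2 inferInstance]; exact le_top) (Or.inl hsolT) hcop h1 (card_cj g Y)
    have h2 : cj (x⁻¹ * g) Y = Y := by
      rw [cj_mul, hxY, cj_inv_cj]
    have h3 : x⁻¹ * g ∈ normalizer (Y : Set G) := mem_normalizer_of_cj_eq h2
    have h4 : g = x * (x⁻¹ * g) := by group
    rw [h4]
    exact Subgroup.mul_mem _ (Subgroup.mem_sup_right (hTF hx)) (Subgroup.mem_sup_left h3)
  exact normalizer_eq_top_iff.1 (frattini_nongenerating key)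

/-- pull back along a normal `p`-subgroup contained in the Frattini subgroup. -/
theorem Concl.pull_frattini {p : ℕ} (hp : p.Prime) {G : Type u} [Group G] [Finite G]
    (T : Subgroup G) [T.Normal] (hT : IsPGroup p T) (hTF : T ≤ frattini G)
    (hc : pPrimeCore p G = ⊥) (h : Concl p (G ⧸ T)) : Concl p G := by
  haveI : Fact p.Prime := ⟨hp⟩
  obtain ⟨A, B, C, hA, hB, hC, hAB, hBC, hAp, ⟨k, hABp⟩, hBCp, hCp⟩ := h
  have hs := QuotientGroup.mk'_surjective T
  obtain ⟨a, ha⟩ := IsPGroup.iff_card.1 hT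
  have hcop : (Nat.card A).Coprime (Nat.card T) := by
    rw [ha]; exact Nat.Coprime.pow_right _ ((Nat.Prime.coprime_iff_not_dvd hp).2 hAp).symm
  have hTA := le_comap_mk T A
  obtain ⟨Y, hYA, hYc⟩ := Cfsg.Agent.Lib.Helper1.exists_complement_rel T
    (A.comap (QuotientGroup.mk' T)) hTA (Nat.card A) (by rw [card_comap_mk, mul_comm]) hcop
  have hTY : T ⊓ Y = ⊥ := (Subgroup.disjoint_of_coprime_natCard (by rw [hYc]; exact hcop.symm)).eq_bot
  have hAeq : A.comap (QuotientGroup.mk' T) = T ⊔ Y := by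
    symm
    apply Subgroup.eq_of_le_of_card_ge (sup_le hTA hYA)
    rw [Cfsg.Agent.Lib.Helper30.card_sup_eq_mul T Y hTY, card_comap_mk, hYc]
  haveI : (A.comap (QuotientGroup.mk' T)).Normal := hA.comap _
  have hYn : Y.Normal := normal_of_frattini hp T hT hTF _ Y hAeq (by rw [hYc]; exact hAp)
  have hY1 : Y ≤ pPrimeCore p G := Cfsg.Agent.Lib.Helper80.le_pPrimeCore hYn
    (by rw [hYc]; exact ((Nat.Prime.coprime_iff_not_dvd hp).2 hAp).symm)
  rw [hc] at hY1
  have hY2 : Y = ⊥ := eq_bot_iff.2 hY1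
  have hA1 : Nat.card A = 1 := by rw [← hYc, hY2]; simp
  have hA2 : A = ⊥ := Subgroup.card_eq_one.1 hA1
  subst hA2
  refine ⟨⊥, B.comap (QuotientGroup.mk' T),
    C.comap (QuotientGroup.mk' T), inferInstance, hB.comap _, hC.comap _, bot_le,
    Subgroup.comap_mono hBC, ?_, ?_, ?_, ?_⟩
  · simpa using hp.one_lt.ne'
  · refine ⟨a + k, ?_⟩
    rw [Subgroup.relIndex_bot_left] at hABp ⊢
    rw [card_comap_mk, ha, hABp, pow_add]
  · rw [relIndex_comap_comap _ hs]; exact hBCp
  · rw [Subgroup.index_comap_of_surjective _ hs]; exact hCp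

/-- a `p`-subgroup of a symmetric group of degree `p` is commutative. -/
theorem comm_of_isPGroup_perm {p : ℕ} (hp : p.Prime) {α : Type*} [Finite α] (hα : Nat.card α = p)
    (S : Subgroup (Equiv.Perm α)) (hS : IsPGroup p S) (x y : Equiv.Perm α) (hx : x ∈ S)
    (hy : y ∈ S) : x * y = y * x := by
  haveI : Fact p.Prime := ⟨hp⟩
  obtain ⟨j, hj⟩ := IsPGroup.iff_card.1 hS
  have h1 : p ^ j ∣ p.factorial := by
    rw [← hj, ← hα, ← Nat.card_perm]
    exact Subgroup.card_subgroup_dvd_card S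
  have h2 : j ≤ 1 := by
    by_contra hcon
    have h3 : p ^ 2 ∣ p.factorial := (pow_dvd_pow p (by omega)).trans h1
    obtain ⟨m, rfl⟩ : ∃ m, p = m + 1 := ⟨p - 1, by have := hp.pos; omega⟩
    rw [Nat.factorial_succ, pow_two] at h3
    have h4 : (m + 1) ∣ m.factorial := Nat.dvd_of_mul_dvd_mul_left (by omega) h3
    have := (Nat.Prime.dvd_factorial hp).1 h4
    omega
  have hcomm : ∀ a b : S, a * b = b * a := by
    interval_cases j
    · rw [pow_zero] at hj
      haveI : Subsingleton S := (Nat.card_eq_one_iff_unique.1 hj).1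
      intro a b
      exact Subsingleton.elim _ _
    · rw [pow_one] at hj
      haveI : IsCyclic S := isCyclic_of_prime_card hj
      intro a b
      exact IsCyclic.commGroup.mul_comm a b
  exact congrArg Subtype.val (hcomm ⟨x, hx⟩ ⟨y, hy⟩)

theorem mem_frattini_of_forall {G : Type*} [Group G] {x : G}
    (h : ∀ M : Subgroup G, IsCoatom M → x ∈ M) : x ∈ frattini G := by
  unfold frattini Order.radical
  simp only [Subgroup.mem_iInf]
  exact fun M hM => h M hM

theorem sup_eq_top_of_coatom {G : Type*} [Group G] {R M : Subgroup G} (hM : IsCoatom M)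
    (h : ¬ R ≤ M) : R ⊔ M = ⊤ := by
  apply hM.2
  refine lt_of_le_of_ne le_sup_right ?_
  intro h1
  exact h (h1 ▸ le_sup_left)

/-- the base case. -/
theorem Concl.base {p : ℕ} (hp : p.Prime) {G : Type u} [Group G] [Finite G]
    (hs : IsPSolvable p G) (hc : pPrimeCore p G = ⊥) (hF : pCore p G ⊓ frattini G = ⊥)
    (h : Hyp p G) : Concl p G := by
  haveI : Fact p.Prime := ⟨hp⟩
  obtain ⟨hRn, hRp⟩ := Cfsg.Agent.Lib.Helper80.pCore_spec (G := G) p
  have hcent := Cfsg.Agent.Lib.Helper80.centralizer_pCore_le hs hc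
  set R := pCore p G with hR
  obtain ⟨a, ha⟩ := IsPGroup.iff_card.1 hRp
  by_cases hcase : ∃ M : Subgroup G, IsCoatom M ∧ ¬ R ≤ M ∧ PN p ↥M
  · obtain ⟨M, hM, hRM, hPN⟩ := hcase
    have htop := sup_eq_top_of_coatom hM hRM
    have hsurj : Function.Surjective ((QuotientGroup.mk' R).comp M.subtype) := by
      intro x
      obtain ⟨g, rfl⟩ := QuotientGroup.mk'_surjective R x
      have hg : g ∈ R ⊔ M := htop ▸ Subgroup.mem_top g
      obtain ⟨r, hr, m, hm, rfl⟩ := Subgroup.mem_sup_of_normal_left.1 hg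
      refine ⟨⟨m, hm⟩, ?_⟩
      simp only [MonoidHom.comp_apply, Subgroup.subtype_apply, map_mul]
      have : (QuotientGroup.mk' R) r = 1 := (QuotientGroup.eq_one_iff r).2 hr
      rw [this, one_mul]
    obtain ⟨K, hKn, hKp, hKi⟩ := PN.of_surjective hp _ hsurj hPN
    have hsq := QuotientGroup.mk'_surjective R
    have hle := le_comap_mk R K
    refine ⟨⊥, R, K.comap (QuotientGroup.mk' R), inferInstance, hRn, hKn.comap _, bot_le, hle,
      ?_, ⟨a, ?_⟩, ?_, ?_⟩
    · simpa using hp.one_lt.ne'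
    · rw [Subgroup.relIndex_bot_left, ha]
    · have h1 := Cfsg.Agent.Lib.Helper80.card_mul_relIndex_of_le hle
      rw [card_comap_mk] at h1
      have h2 := Nat.eq_of_mul_eq_mul_left Nat.card_pos h1
      rw [h2]; exact hKp
    · rw [Subgroup.index_comap_of_surjective _ hsq]; exact hKi
  · obtain ⟨Q, hRQ⟩ := hRp.exists_le_sylow
    have hidx : ∀ M : Subgroup G, IsCoatom M → ¬ R ≤ M → M.index = p := by
      intro M hM hRM
      have hpr : (M.index).Prime := by
        rcases h M hM with h1 | h1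
        · exact absurd ⟨M, hM, hRM, h1⟩ hcase
        · exact h1
      have h1 := Cfsg.Agent.Lib.Helper53.index_eq_relIndex_of_sup_eq_top
        (sup_eq_top_of_coatom hM hRM)
      have h2 : M.index ∣ p ^ a := by
        rw [h1, ← ha]
        exact Subgroup.relIndex_dvd_card _ _
      exact (Nat.prime_dvd_prime_iff_eq hpr hp).1 (hpr.dvd_of_dvd_pow h2)
    have hcomm : ∀ r ∈ R, ∀ g ∈ (Q : Subgroup G), r * g * r⁻¹ * g⁻¹ = 1 := by
      intro r hr g hg
      have hinR : r * g * r⁻¹ * g⁻¹ ∈ R := by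
        have : g * r⁻¹ * g⁻¹ ∈ R := hRn.conj_mem _ (inv_mem hr) g
        have h2 := mul_mem hr this
        simpa [mul_assoc] using h2
      have hinF : r * g * r⁻¹ * g⁻¹ ∈ frattini G := by
        apply mem_frattini_of_forall
        intro M hM
        by_cases hRM : R ≤ M
        · exact hRM hinR
        · have hi := hidx M hM hRM
          apply Subgroup.normalCore_le M
          rw [Subgroup.normalCore_eq_ker, MonoidHom.mem_ker]
          have hcm := comm_of_isPGroup_perm hp (α := G ⧸ M) (by rw [← Subgroup.index_eq_card, hi])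
            ((Q : Subgroup G).map (MulAction.toPermHom G (G ⧸ M))) (Q.2.map _)
            _ _ (Subgroup.mem_map_of_mem _ (hRQ hr)) (Subgroup.mem_map_of_mem _ hg)
          rw [map_mul, map_mul, map_mul, hcm, map_inv, map_inv]
          group
      have : r * g * r⁻¹ * g⁻¹ ∈ R ⊓ frattini G := ⟨hinR, hinF⟩
      rw [hF] at this
      exact Subgroup.mem_bot.1 this
    have hQR : (Q : Subgroup G) ≤ R := by
      intro g hg
      apply hcent
      rw [Subgroup.mem_centralizer_iff]
      intro r hr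
      have := hcomm r hr g hg
      have h2 : r * g = g * r := by
        have h3 : r * g * r⁻¹ * g⁻¹ * (g * r) = g * r := by rw [this, one_mul]
        rw [← h3]; group
      exact h2
    have hQeq : (Q : Subgroup G) = R := le_antisymm hQR hRQ
    refine ⟨⊥, R, ⊤, inferInstance, hRn, inferInstance, bot_le, le_top, ?_, ⟨a, ?_⟩, ?_, ⟨0, ?_⟩⟩
    · simpa using hp.one_lt.ne'
    · rw [Subgroup.relIndex_bot_left, ha]
    · rw [Subgroup.relIndex_top_right, ← hQeq]
      exact Q.not_dvd_index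
    · simp

theorem card_quot_lt {G : Type u} [Group G] [Finite G] (N : Subgroup G) [N.Normal] (hN : N ≠ ⊥) :
    Nat.card (G ⧸ N) < Nat.card G := by
  have h1 := Subgroup.card_mul_index N
  rw [Subgroup.index_eq_card] at h1
  have h2 : 1 < Nat.card N := (Subgroup.one_lt_card_iff_ne_bot N).2 hN
  have h3 : 0 < Nat.card (G ⧸ N) := Nat.card_pos
  nlinarith

theorem main_aux {p : ℕ} (hp : p.Prime) : ∀ (n : ℕ) (G : Type u) [Group G] [Finite G],
    Nat.card G = n → IsPSolvable p G → Hyp p G → Concl p G := by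
  intro n
  induction n using Nat.strong_induction_on with
  | _ n ih =>
    intro G _ _ hn hs h
    haveI : Fact p.Prime := ⟨hp⟩
    by_cases h1 : pPrimeCore p G = ⊥
    · by_cases h2 : pCore p G ⊓ frattini G = ⊥
      · exact Concl.base hp hs h1 h2 h
      · obtain ⟨hRn, hRp⟩ := Cfsg.Agent.Lib.Helper80.pCore_spec (G := G) p
        haveI : (pCore p G ⊓ frattini G).Normal := inferInstance
        apply Concl.pull_frattini hp (pCore p G ⊓ frattini G) (hRp.to_le inf_le_left) inf_le_right h1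
        exact ih _ (hn ▸ card_quot_lt _ h2) (G ⧸ (pCore p G ⊓ frattini G)) rfl
          (Cfsg.Agent.Lib.Helper80.isPSolvable_of_surjective hp _
            (QuotientGroup.mk'_surjective _) hs) (h.quot hp _)
    · obtain ⟨hKn, hKp⟩ := Cfsg.Agent.Lib.Helper80.pPrimeCore_spec (G := G) p
      apply Concl.pull_pprime hp (pPrimeCore p G)
        ((Nat.Prime.coprime_iff_not_dvd hp).1 hKp.symm)
      exact ih _ (hn ▸ card_quot_lt _ h1) (G ⧸ pPrimeCore p G) rfl
        (Cfsg.Agent.Lib.Helper80.isPSolvable_of_surjective hp _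
          (QuotientGroup.mk'_surjective _) hs) (h.quot hp _)

/-- **Main theorem**: `p`-soluble, every maximal subgroup `p`-nilpotent or of prime index. -/
theorem main {p : ℕ} (hp : p.Prime) {G : Type u} [Group G] [Finite G]
    (hs : IsPSolvable p G) (h : Hyp p G) : Concl p G :=
  main_aux hp _ G rfl hs h

end Cfsg.Agent.Lib.Helper58.PL2
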