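import Mathlib
import Cfsg.Prelude
import Cfsg.Agent.Lib.Helper1.Coprime3
import Cfsg.Agent.Lib.Helper27.Signalizer
import Cfsg.Agent.Lib.Helper54.CoprimeGen
import Cfsg.Agent.Lib.Helper59.UniqueOdd
import Cfsg.Agent.Lib.Helper65.ZGroupCoprime

set_option autoImplicit false
set_option linter.style.haveILetI false

/-! TI subgroups that are Hall in their normalizer, in `π`-separable groups. -/

namespace Cfsg.Agent.Lib.Helper58.TIHall

open Cfsg.Agent.Lib.Helper1
open scoped commutatorElement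

variable {G : Type*} [Group G]

theorem mem_normalizer_of_ti {H : Subgroup G} (hTI : Cfsg.IsTISubset (H : Set G)) {g x : G}
    (hx : x ∈ H) (hx1 : x ≠ 1) (hg : g * x * g⁻¹ ∈ H) : g ∈ Subgroup.normalizer (H : Set G) := by
  by_contra hcon
  exact hx1 (hTI g hcon x hx hg)

theorem normalizer_le_of_ti {H P : Subgroup G} (hTI : Cfsg.IsTISubset (H : Set G)) (hPH : P ≤ H)
    (hP : P ≠ ⊥) : Subgroup.normalizer (P : Set G) ≤ Subgroup.normalizer (H : Set G) := by
  intro g hg
  obtain ⟨x, hx, hx1⟩ : ∃ x ∈ P, x ≠ 1 := by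
    obtain ⟨x, hx⟩ := Subgroup.ne_bot_iff_exists_ne_one.mp hP
    exact ⟨x.1, x.2, fun h => hx (Subtype.ext h)⟩
  refine mem_normalizer_of_ti hTI (hPH hx) hx1 (hPH ?_)
  exact (Subgroup.mem_normalizer_iff.mp hg x).mp hx

theorem relIndex_dvd_index_of_normal_right [Finite G] (P L : Subgroup G) [L.Normal] :
    P.relIndex L ∣ P.index := by
  have h1 : L.relIndex (P ⊔ L) = L.relIndex P := Subgroup.relIndex_sup_right P L
  have rmc : ∀ {A B : Subgroup G}, A ≤ B → A.relIndex B * Nat.card A = Nat.card B := by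
    intro A B h
    rw [mul_comm]; exact card_mul_relIndex h
  have e1 := rmc (le_sup_right : L ≤ P ⊔ L)
  have e2 := rmc (inf_le_left : P ⊓ L ≤ P)
  have e3 := rmc (inf_le_right : P ⊓ L ≤ L)
  have e4 := rmc (le_sup_left : P ≤ P ⊔ L)
  rw [Subgroup.inf_relIndex_left] at e2
  rw [Subgroup.inf_relIndex_right] at e3
  rw [h1] at e1
  have hpos1 : 0 < Nat.card (P ⊓ L : Subgroup G) := Nat.card_pos
  have hpos2 : 0 < L.relIndex P := by
    rcases Nat.eq_zero_or_pos (L.relIndex P) with h | h
    · rw [h, zero_mul] at e2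
      exact absurd e2.symm (Nat.card_pos (α := P)).ne'
    · exact h
  have h5 : P.relIndex L = P.relIndex (P ⊔ L) := by
    have : L.relIndex P * Nat.card (P ⊓ L : Subgroup G) * P.relIndex L
        = L.relIndex P * Nat.card (P ⊓ L : Subgroup G) * P.relIndex (P ⊔ L) := by
      calc L.relIndex P * Nat.card (P ⊓ L : Subgroup G) * P.relIndex L
          = L.relIndex P * (P.relIndex L * Nat.card (P ⊓ L : Subgroup G)) := by ring
        _ = L.relIndex P * Nat.card L := by rw [e3]
        _ = Nat.card (P ⊔ L : Subgroup G) := e1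
        _ = P.relIndex (P ⊔ L) * Nat.card P := e4.symm
        _ = P.relIndex (P ⊔ L) * (L.relIndex P * Nat.card (P ⊓ L : Subgroup G)) := by rw [e2]
        _ = _ := by ring
    exact Nat.eq_of_mul_eq_mul_left (Nat.mul_pos hpos2 hpos1) this
  rw [h5]
  exact Subgroup.relIndex_dvd_index_of_le le_sup_left

theorem isSylowIn_inf_normal [Finite G] {p : ℕ} {P : Subgroup G} (hP : IsSylowIn p P ⊤)
    (L : Subgroup G) [L.Normal] : IsSylowIn p (P ⊓ L) L := by
  refine ⟨inf_le_right, hP.2.1.to_le inf_le_left, ?_⟩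
  rw [Subgroup.inf_relIndex_right]
  intro h
  apply hP.2.2
  rw [Subgroup.relIndex_top_right]
  exact h.trans (relIndex_dvd_index_of_normal_right P L)


section main
variable [Finite G] {H : Subgroup G}

/-- a Sylow subgroup of `H` is a Sylow subgroup of `G` -/
theorem sylow_top (hTI : Cfsg.IsTISubset (H : Set G))
    (hHall : (Nat.card H).Coprime (H.relIndex (Subgroup.normalizer (H : Set G))))
    {p : ℕ} [hp : Fact p.Prime] (hpH : p ∣ Nat.card H) {P : Subgroup G} (hP : IsSylowIn p P H) :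
    IsSylowIn p P ⊤ := by
  have hPne : P ≠ ⊥ := by
    rintro rfl
    apply hP.2.2
    rw [Subgroup.relIndex_bot_left]; exact hpH
  apply isSylowIn_of_isSylowIn_normalizer le_top
  refine ⟨le_inf Subgroup.le_normalizer le_top, hP.2.1, ?_⟩
  rw [inf_top_eq]
  intro hdvd
  have h1 : Subgroup.normalizer (P : Set G) ≤ Subgroup.normalizer (H : Set G) :=
    normalizer_le_of_ti hTI hP.1 hPne
  have h2 := Subgroup.relIndex_mul_relIndex P _ _ Subgroup.le_normalizer h1
  have h3 := Subgroup.relIndex_mul_relIndex P H _ hP.1 Subgroup.le_normalizer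
  have h4 : p ∣ P.relIndex H * H.relIndex (Subgroup.normalizer (H : Set G)) := by
    rw [h3, ← h2]; exact dvd_mul_of_dvd_left hdvd _
  rcases (Nat.Prime.dvd_mul hp.out).mp h4 with h | h
  · exact hP.2.2 h
  · have := Nat.dvd_gcd hpH h
    rw [hHall] at this
    exact hp.out.one_lt.ne' (Nat.dvd_one.mp this)

theorem hall (hTI : Cfsg.IsTISubset (H : Set G))
    (hHall : (Nat.card H).Coprime (H.relIndex (Subgroup.normalizer (H : Set G)))) :
    (Nat.card H).Coprime H.index := by
  apply Nat.coprime_of_dvd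
  intro p hp h1 h2
  haveI : Fact p.Prime := ⟨hp⟩
  obtain ⟨P, hP⟩ := exists_isSylowIn p H
  have := sylow_top hTI hHall h1 hP
  apply this.2.2
  rw [Subgroup.relIndex_top_right, ← Subgroup.relIndex_mul_index hP.1]
  exact dvd_mul_of_dvd_right h2 _

theorem exists_normal_coprime (hTI : Cfsg.IsTISubset (H : Set G))
    (hHall : (Nat.card H).Coprime (H.relIndex (Subgroup.normalizer (H : Set G))))
    (hnn : ¬ H.Normal)
    (hsep : ∃ (n : ℕ) (M : Fin (n + 1) → Subgroup G), M 0 = ⊥ ∧ M (Fin.last n) = ⊤ ∧ Monotone M ∧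
      (∀ i, (M i).Normal) ∧
      ∀ i : Fin n, (∀ q : ℕ, q.Prime → q ∣ (M i.castSucc).relIndex (M i.succ) → q ∣ Nat.card H) ∨
        ((M i.castSucc).relIndex (M i.succ)).Coprime (Nat.card H)) :
    ∃ K : Subgroup G, K.Normal ∧ (Nat.card K).Coprime (Nat.card H) ∧
      K ⊔ Subgroup.normalizer (H : Set G) = ⊤ := by
  obtain ⟨n, M, h0, hlast, hmono, hnorm, hfac⟩ := hsep
  by_contra hcon
  have key : ∀ i : Fin (n+1), (Nat.card (M i)).Coprime (Nat.card H) := by
    intro i
    induction i using Fin.induction with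
    | zero => rw [h0]; simp
    | succ i ih =>
      have hle : M i.castSucc ≤ M i.succ := hmono (Fin.castSucc_le_succ i)
      have hcard := card_mul_relIndex hle
      rcases hfac i with hf | hf
      · by_cases h1 : (M i.castSucc).relIndex (M i.succ) = 1
        · rw [← hcard, h1, mul_one]; exact ih
        · exfalso
          apply hcon
          refine ⟨M i.castSucc, hnorm _, ih, ?_⟩
          obtain ⟨K, hK⟩ : ∃ K, K = M i.castSucc := ⟨_, rfl⟩
          obtain ⟨L, hL⟩ : ∃ L, L = M i.succ := ⟨_, rfl⟩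
          haveI : L.Normal := hL ▸ hnorm _
          rw [← hK, ← hL] at hle h1 hf
          rw [← hK]
          have hLX : L ≤ K ⊔ Subgroup.normalizer (H : Set G) := by
            rw [← Subgroup.relIndex_eq_one]
            by_contra hne
            obtain ⟨q, hq, hqd⟩ := Nat.exists_prime_and_dvd hne
            haveI : Fact q.Prime := ⟨hq⟩
            have hqH : q ∣ Nat.card H :=
              hf q hq (hqd.trans (Subgroup.relIndex_dvd_of_le_left L le_sup_left))
            obtain ⟨Q, hQ⟩ := exists_isSylowIn q H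
            have hQ1 := isSylowIn_inf_normal (sylow_top hTI hHall hqH hQ) L
            apply hQ1.2.2
            refine hqd.trans (Subgroup.relIndex_dvd_of_le_left L ?_)
            exact inf_le_left.trans (hQ.1.trans (Subgroup.le_normalizer.trans le_sup_right))
          obtain ⟨p, hp, hpd⟩ := Nat.exists_prime_and_dvd h1
          haveI : Fact p.Prime := ⟨hp⟩
          have hpH : p ∣ Nat.card H := hf p hp hpd
          obtain ⟨P, hP⟩ := exists_isSylowIn p H
          have hP1 := isSylowIn_inf_normal (sylow_top hTI hHall hpH hP) L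
          have hP1ne : P ⊓ L ≠ ⊥ := by
            intro hbot
            apply hP1.2.2
            rw [hbot, Subgroup.relIndex_bot_left]
            exact hpd.trans (Subgroup.relIndex_dvd_card K L)
          obtain ⟨S, hS⟩ := hP1.exists_sylow
          have hfr := Sylow.normalizer_sup_eq_top S
          rw [hS] at hfr
          have h5 : Subgroup.normalizer ((P ⊓ L : Subgroup G) : Set G) ≤
              Subgroup.normalizer (H : Set G) :=
            normalizer_le_of_ti hTI (inf_le_left.trans hP.1) hP1ne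
          rw [eq_top_iff, ← hfr]
          exact sup_le (h5.trans le_sup_right) hLX
      · rw [← hcard]; exact Nat.Coprime.mul_left ih hf
  have h1 := key (Fin.last n)
  rw [hlast] at h1
  have h2 : Nat.card H ∣ Nat.card (⊤ : Subgroup G) := by
    rw [Subgroup.card_top]; exact Subgroup.card_subgroup_dvd_card H
  have h3 : Nat.card H = 1 := Nat.Coprime.eq_one_of_dvd h1.symm h2
  apply hnn
  rw [Subgroup.card_eq_one.mp h3]
  infer_instance

theorem inf_centralizer_le (hTI : Cfsg.IsTISubset (H : Set G)) {K : Subgroup G} [K.Normal]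
    (hcop : (Nat.card K).Coprime (Nat.card H)) {x : G} (hx : x ∈ H) (hx1 : x ≠ 1) :
    K ⊓ Subgroup.centralizer {x} ≤ Subgroup.centralizer (H : Set G) := by
  intro k hk
  have hkx : x * k = k * x := (Subgroup.mem_centralizer_singleton_iff.mp hk.2).symm
  have hkN : k ∈ Subgroup.normalizer (H : Set G) := by
    apply mem_normalizer_of_ti hTI hx hx1
    rw [← hkx]; simpa using hx
  rw [Subgroup.mem_centralizer_iff]
  intro h hh
  have h1 : k * h * k⁻¹ * h⁻¹ ∈ H :=
    H.mul_mem ((Subgroup.mem_normalizer_iff.mp hkN h).mp hh) (H.inv_mem hh)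
  have h2 : k * h * k⁻¹ * h⁻¹ ∈ K := by
    have : k * h * k⁻¹ * h⁻¹ = k * (h * k⁻¹ * h⁻¹) := by group
    rw [this]
    exact K.mul_mem hk.1 (Subgroup.Normal.conj_mem inferInstance _ (K.inv_mem hk.1) h)
  have h3 : K ⊓ H = ⊥ := (Subgroup.disjoint_of_coprime_natCard hcop).eq_bot
  have h4 : k * h * k⁻¹ * h⁻¹ = 1 := by
    have : k * h * k⁻¹ * h⁻¹ ∈ K ⊓ H := ⟨h2, h1⟩
    rwa [h3, Subgroup.mem_bot] at this
  calc h * k = (k * h * k⁻¹ * h⁻¹)⁻¹ * (k * h) := by group
    _ = k * h := by rw [h4]; simp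

theorem mem_zpowers_of_commute (hTI : Cfsg.IsTISubset (H : Set G)) (hnn : ¬ H.Normal)
    {K : Subgroup G} [K.Normal] (hcop : (Nat.card K).Coprime (Nat.card H))
    (hKN : K ⊔ Subgroup.normalizer (H : Set G) = ⊤) {p : ℕ} [hp : Fact p.Prime]
    {A : Subgroup G} (hAH : A ≤ H) (hA : IsPGroup p A) {a b : G} (ha : a ∈ A) (hb : b ∈ A)
    (hab : Commute a b) (hap : a ^ p = 1) (hbp : b ^ p = 1) (ha1 : a ≠ 1) :
    b ∈ Subgroup.zpowers a := by
  by_contra hcon
  have hAK : A ≤ Subgroup.normalizer (K : Set G) := by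
    rw [Subgroup.normalizer_eq_top_iff.mpr inferInstance]; exact le_top
  have hcopA : (Nat.card A).Coprime (Nat.card K) :=
    (Nat.Coprime.coprime_dvd_right (Subgroup.card_dvd_of_le hAH) hcop).symm
  have hsolv : Group.IsSolvable A := by
    haveI := hA.isNilpotent
    infer_instance
  have hpK : ¬ p ∣ Nat.card K := by
    intro hd
    have h1 : p ∣ Nat.card H := by
      have := orderOf_eq_prime hap ha1
      rw [← this]
      have h2 := orderOf_dvd_natCard (⟨a, hAH ha⟩ : H)
      rwa [Subgroup.orderOf_mk] at h2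
    have := Nat.dvd_gcd hd h1
    rw [hcop] at this
    exact hp.out.one_lt.ne' (Nat.dvd_one.mp this)
  have h1 := Cfsg.Agent.Lib.Helper54.le_genC p hAK hcopA hsolv ha hb hab hap hbp hpK
  have h2 : Cfsg.Agent.Lib.Helper54.genC a b K ≤ Subgroup.centralizer (H : Set G) := by
    unfold Cfsg.Agent.Lib.Helper54.genC
    refine sup_le (inf_centralizer_le hTI hcop (hAH ha) ha1) (iSup_le fun i => ?_)
    refine inf_centralizer_le hTI hcop (hAH (A.mul_mem (A.pow_mem ha i) hb)) ?_
    intro h
    apply hcon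
    have : b = (a ^ i)⁻¹ := by
      rw [eq_inv_iff_mul_eq_one, ← h]
      exact ((hab.pow_left i).eq).symm
    rw [this]
    exact (Subgroup.zpowers a).inv_mem (Subgroup.npow_mem_zpowers a i)
  apply hnn
  rw [← Subgroup.normalizer_eq_top_iff, eq_top_iff, ← hKN]
  exact sup_le ((h1.trans h2).trans (Subgroup.centralizer_le_normalizer _)) le_rfl

theorem isZGroup (hTI : Cfsg.IsTISubset (H : Set G)) (hnn : ¬ H.Normal)
    {K : Subgroup G} [K.Normal] (hcop : (Nat.card K).Coprime (Nat.card H))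
    (hKN : K ⊔ Subgroup.normalizer (H : Set G) = ⊤)
    (h2 : ∀ P : Sylow 2 H, IsMulCommutative (P : Subgroup H)) : IsZGroup H := by
  constructor
  intro p hp P
  haveI : Fact p.Prime := ⟨hp⟩
  obtain ⟨A, hA⟩ : ∃ A : Subgroup G, A = (P : Subgroup H).map H.subtype := ⟨_, rfl⟩
  have hAH : A ≤ H := hA ▸ Subgroup.map_subtype_le _
  have hAp : IsPGroup p A := hA ▸ P.isPGroup'.map _
  have hmem : ∀ x : (P : Subgroup H), ((x : H) : G) ∈ A := by
    intro x
    rw [hA]
    exact ⟨x.1, x.2, rfl⟩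
  have hord : ∀ x : (P : Subgroup H), orderOf ((x : H) : G) = orderOf x := by
    intro x
    rw [Subgroup.orderOf_coe, Subgroup.orderOf_coe]
  have claim : ∀ x y : (P : Subgroup H), orderOf x = p → orderOf y = p → Commute x y →
      y ∈ Subgroup.zpowers x := by
    intro x y hx hy hxy
    have h1 : ((y : H) : G) ∈ Subgroup.zpowers ((x : H) : G) := by
      apply mem_zpowers_of_commute hTI hnn hcop hKN hAH hAp (hmem x) (hmem y)
      · have := congrArg (fun z : (P : Subgroup H) => ((z : H) : G)) hxy.eq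
        exact this
      · have := pow_orderOf_eq_one ((x : H) : G)
        rwa [hord, hx] at this
      · have := pow_orderOf_eq_one ((y : H) : G)
        rwa [hord, hy] at this
      · intro h
        have : orderOf ((x : H) : G) = 1 := by rw [h, orderOf_one]
        rw [hord, hx] at this
        exact hp.one_lt.ne' this
    obtain ⟨k, hk⟩ := h1
    refine ⟨k, ?_⟩
    apply Subtype.ext
    apply Subtype.ext
    simpa using hk
  have huniq : ∀ x y : (P : Subgroup H), orderOf x = p → orderOf y = p →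
      y ∈ Subgroup.zpowers x := by
    intro x y hx hy
    haveI : Nontrivial (P : Subgroup H) := by
      refine ⟨x, 1, ?_⟩
      intro h
      rw [h, orderOf_one] at hx
      exact hp.one_lt.ne hx
    obtain ⟨z, hz, hzp⟩ := Cfsg.Agent.Lib.Helper59.exists_central_orderOf_eq P.isPGroup'
    have hzc : ∀ w, Commute z w := fun w => (Subgroup.mem_center_iff.mp hz w).symm
    have hxz := claim z x hzp hx (hzc x)
    have hyz := claim z y hzp hy (hzc y)
    apply claim x y hx hy
    obtain ⟨i, rfl⟩ := hxz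
    obtain ⟨j, rfl⟩ := hyz
    exact (Commute.refl z).zpow_zpow i j
  by_cases hp2 : p = 2
  · subst hp2
    haveI := h2 P
    exact Cfsg.Agent.Lib.Helper59.isCyclic_of_unique_of_comm P.isPGroup' huniq
      (fun x y => mul_comm' x y)
  · exact Cfsg.Agent.Lib.Helper59.isCyclic_of_unique_odd hp2 P.isPGroup' huniq

theorem main_thm (H : Subgroup G)
    (hTI : Cfsg.IsTISubset (H : Set G)) (hnn : ¬ H.Normal)
    (hHall : (Nat.card H).Coprime (H.subgroupOf (Subgroup.normalizer (H : Set G))).index)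
    (hsep : ∃ (n : ℕ) (M : Fin (n + 1) → Subgroup G), M 0 = ⊥ ∧ M (Fin.last n) = ⊤ ∧ Monotone M ∧
      (∀ i, (M i).Normal) ∧
      ∀ i : Fin n, (∀ q : ℕ, q.Prime → q ∣ (M i.castSucc).relIndex (M i.succ) → q ∣ Nat.card H) ∨
        ((M i.castSucc).relIndex (M i.succ)).Coprime (Nat.card H))
    (h2 : ∀ P : Sylow 2 H, IsMulCommutative (P : Subgroup H))
    (Q : Subgroup G) (hQ : Q ≤ Subgroup.normalizer (H : Set G)) (hQH : Q ⊓ H = ⊥)
    (hQH' : Q ⊔ H = Subgroup.normalizer (H : Set G)) :
    (Nat.card ↥(H ⊓ Subgroup.centralizer (Q : Set G))).Coprime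
      (H ⊓ Subgroup.centralizer (Q : Set G)).index ∧
    ∃ N : Subgroup G, N.Normal ∧ N.IsComplement' (H ⊓ Subgroup.centralizer (Q : Set G)) := by
  have hHall' : (Nat.card H).Coprime (H.relIndex (Subgroup.normalizer (H : Set G))) := hHall
  obtain ⟨K, hKn, hcop, hKN⟩ := exists_normal_coprime hTI hHall' hnn hsep
  haveI := hKn
  haveI := isZGroup hTI hnn hcop hKN h2
  have hcardQ : H.relIndex (Subgroup.normalizer (H : Set G)) = Nat.card Q := by
    rw [← hQH', relIndex_sup_right_of_le_normalizer hQ, ← Subgroup.inf_relIndex_right, inf_comm,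
      hQH, Subgroup.relIndex_bot_left]
  have hcopQ : (Nat.card Q).Coprime (Nat.card H) := by rw [← hcardQ]; exact hHall'.symm
  obtain ⟨-, -, hLD, hLDcop⟩ := Cfsg.Agent.Lib.Helper65.zgroup_coprime_action H Q hQ hcopQ
  obtain ⟨L, hL⟩ : ∃ L : Subgroup G, L = ⁅H, Q⁆ := ⟨_, rfl⟩
  obtain ⟨D, hD⟩ : ∃ D : Subgroup G, D = H ⊓ Subgroup.centralizer (Q : Set G) := ⟨_, rfl⟩
  rw [← hL, ← hD] at hLD hLDcop
  rw [← hD]
  have hDH : D ≤ H := hD ▸ inf_le_left
  have hNL : H ⊔ Q ≤ Subgroup.normalizer (L : Set G) := hL ▸ sup_le_normalizer_commutator H Q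
  have hQL : Q ≤ Subgroup.normalizer (L : Set G) := le_sup_right.trans hNL
  have hHL : H ≤ Subgroup.normalizer (L : Set G) := le_sup_left.trans hNL
  have hHT : H ≤ Subgroup.normalizer ((L ⊔ Q : Subgroup G) : Set G) := by
    rw [Subgroup.le_normalizer_iff]
    intro h hh t ht
    rw [sup_comm, mem_sup_of_le_normalizer hQL] at ht
    obtain ⟨q, hq, l, hl, rfl⟩ := ht
    have e : h * (q * l) * h⁻¹ = ⁅h, q⁆ * q * (h * l * h⁻¹) := by
      rw [commutatorElement_def]; group
    rw [e]
    refine (L ⊔ Q).mul_mem ((L ⊔ Q).mul_mem (Subgroup.mem_sup_left ?_) (Subgroup.mem_sup_right hq))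
      (Subgroup.mem_sup_left ?_)
    · rw [hL]; exact Subgroup.commutator_mem_commutator hh hq
    · exact (Subgroup.le_normalizer_iff.mp hHL) h hh l hl
  have hNT : Subgroup.normalizer (H : Set G) ≤ Subgroup.normalizer ((L ⊔ Q : Subgroup G) : Set G) := by
    rw [← hQH']
    exact sup_le (le_sup_right.trans Subgroup.le_normalizer) hHT
  have hNK : ∀ X : Subgroup G, X ≤ Subgroup.normalizer (K : Set G) := by
    intro X
    rw [Subgroup.normalizer_eq_top_iff.mpr inferInstance]; exact le_top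
  have hnorm : (K ⊔ (L ⊔ Q)).Normal := by
    rw [← Subgroup.normalizer_eq_top_iff, eq_top_iff, ← hKN]
    exact sup_le (le_sup_left.trans Subgroup.le_normalizer)
      (Cfsg.Agent.Lib.Helper30.le_normalizer_sup (hNK _) hNT)
  have hcopN : (Nat.card (K ⊔ (L ⊔ Q) : Subgroup G)).Coprime (Nat.card D) := by
    have h1 := Cfsg.Agent.Lib.Helper27.card_sup_dvd_mul (hNK (L ⊔ Q))
    have h3 := Cfsg.Agent.Lib.Helper27.card_sup_dvd_mul hQL
    have hdD := Subgroup.card_dvd_of_le hDH
    refine Nat.Coprime.coprime_dvd_left h1 (Nat.Coprime.mul_left ?_ ?_)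
    · exact Nat.Coprime.coprime_dvd_right hdD hcop
    · refine Nat.Coprime.coprime_dvd_left h3 (Nat.Coprime.mul_left hLDcop ?_)
      exact Nat.Coprime.coprime_dvd_right hdD hcopQ
  have hsup : (K ⊔ (L ⊔ Q)) ⊔ D = ⊤ := by
    rw [eq_top_iff, ← hKN, ← hQH', ← hLD]
    refine sup_le (le_sup_left.trans le_sup_left) (sup_le ?_ (sup_le ?_ le_sup_right))
    · exact (le_sup_right.trans le_sup_right).trans le_sup_left
    · exact (le_sup_left.trans le_sup_right).trans le_sup_left
  have hcompl : (K ⊔ (L ⊔ Q)).IsComplement' D := by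
    apply Subgroup.isComplement'_of_coprime _ hcopN
    have hd : (K ⊔ (L ⊔ Q)) ⊓ D = ⊥ := (Subgroup.disjoint_of_coprime_natCard hcopN).eq_bot
    have hidx : (K ⊔ (L ⊔ Q)).index = Nat.card D := by
      rw [← Subgroup.relIndex_top_right, ← hsup, Subgroup.relIndex_sup_left,
        ← Subgroup.inf_relIndex_right, hd, Subgroup.relIndex_bot_left]
    rw [← hidx, Subgroup.card_mul_index]
  refine ⟨?_, _, hnorm, hcompl⟩
  rw [hcompl.index_eq_card]
  exact hcopN.symm

end main

end Cfsg.Agent.Lib.Helper58.TIHall
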